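import Mathlib
import Cfsg.Agent.H301.Compat

/-!
# Sylow 2-subgroups `P = M × A`, `A` a four-group, `M` full: the essential subgroups

`four_type`: an essential subgroup is `(X ∩ M) × A` where `X ∩ M` is a four-group or a quaternion group of order 8.
-/

set_option autoImplicit false
set_option linter.unusedSectionVars false
set_option linter.unusedVariables false

namespace Cfsg.Agent.H301.Data

open Subgroup
open Cfsg.Agent.Lib.GoldschmidtFusion
open Cfsg.Agent.Lib
open Cfsg.Agent.H301.Cop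
open scoped commutatorElement

variable {G : Type*} [Group G]

/-- `P = M × A`, `A` a four-group -/
structure PA (P A M C : Subgroup G) (z : G) : Prop where
  prod : Cfsg.IsInternalDirectProduct M A P
  full : Full M C z
  four : IsKleinFour A

/-- an element of a full group acting on a noncommuting pair modulo the centre -/
theorem Full.mem_of_act {M C R : Subgroup G} {z i w m : G} (h : Full M C z) (hz : z ∈ R)
    (hi : i ∈ R) (hiC : i ∈ C) (hii : i * i = z) (hw : w ∈ R) (hwM : w ∈ M) (hwC : w ∉ C) (hm : m ∈ M)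
    (hmw : m * w * m⁻¹ = w ∨ m * w * m⁻¹ = w * z) : m ∈ R := by
  have iM : i ∈ M := h.le hiC
  have zz := h.zz
  have i_inv : i⁻¹ = i * z := by rw [inv_eq_iff_mul_eq_one, ← mul_assoc, hii, zz]
  have iz' : i * z = z * i := h.comm hiC h.zC
  have cz : ∀ m ∈ M, m * z * m⁻¹ = z := fun m hm => conj_eq_iff_commute.2 (h.zcen hm)
  have iw : w * i * w⁻¹ = i * z := by rw [h.inv4 w hwM hwC i hiC hii, i_inv]
  have wi : i * w * i⁻¹ = w * z := by
    have h1 : w * i = i * z * w := mul_inv_eq_iff_eq_mul.1 iw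
    have h2 : w * z = z * w := h.zcen hwM
    rw [i_inv]
    calc i * w * (i * z) = i * (w * i) * z := by group
      _ = i * (i * z * w) * z := by rw [h1]
      _ = (i * i) * (z * w) * z := by group
      _ = (z * z) * w * z := by rw [hii]; group
      _ = _ := by rw [zz, one_mul]
  have key2 : ∀ m ∈ M, Commute m w → Commute m i → m ∈ R := by
    intro m hm cw ci
    have hmC : m ∈ C := h.mem_of_commute_sqrt hiC hii hm ci
    have e1 : w * m * w⁻¹ = m := conj_eq_iff_commute.2 cw.symm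
    have hmm : m * m = 1 := by
      rcases h.inv w hwM hwC m hmC with e2 | e2
      · rw [e1] at e2
        nth_rewrite 1 [e2]; group
      · have e3 : m * m = z := by
          rw [e1] at e2
          have := h.comm (inv_mem hmC) h.zC
          nth_rewrite 1 [e2]; rw [this]; group
        have e4 := h.inv4 w hwM hwC m hmC e3
        rw [e1] at e4
        nth_rewrite 1 [e4]; group
    rcases h.uniq m hmC hmm with rfl | rfl
    · exact one_mem _
    · exact hz
  have key : ∀ m ∈ M, m * w * m⁻¹ = w → m ∈ R := by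
    intro m hm hw'
    have cmw : Commute m w := conj_eq_iff_commute.1 hw'
    have hmi : m * i * m⁻¹ = i ∨ m * i * m⁻¹ = i * z := by
      by_cases hmC : m ∈ C
      · left; exact conj_eq_iff_commute.2 (h.comm hmC hiC)
      · right; rw [h.inv4 m hm hmC i hiC hii, i_inv]
    rcases hmi with h1 | h1
    · exact key2 m hm cmw (conj_eq_iff_commute.1 h1)
    · have h2 : Commute (m * w) w := cmw.mul_left (Commute.refl w)
      have h3 : Commute (m * w) i := by
        rw [← conj_eq_iff_commute]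
        have e : m * w * i * (m * w)⁻¹ = m * (w * i * w⁻¹) * m⁻¹ := by group
        rw [e, iw, conj_mul', h1, cz m hm, mul_assoc, zz, mul_one]
      exact (R.mul_mem_cancel_right hw).1 (key2 (m * w) (mul_mem hm hwM) h2 h3)
  rcases hmw with hw' | hw'
  · exact key m hm hw'
  · have h1 : (m * i) * w * (m * i)⁻¹ = w := by
      have e : (m * i) * w * (m * i)⁻¹ = m * (i * w * i⁻¹) * m⁻¹ := by group
      rw [e, wi, conj_mul', hw', cz m hm, mul_assoc, zz, mul_one]
    exact (R.mul_mem_cancel_right hi).1 (key (m * i) (mul_mem hm iM) h1)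

namespace PA

variable {P A M C X : Subgroup G} {z : G}

theorem M_le (h : PA P A M C z) : M ≤ P := h.prod.1

theorem A_le (h : PA P A M C z) : A ≤ P := h.prod.2.1

theorem comm (h : PA P A M C z) {m a : G} (hm : m ∈ M) (ha : a ∈ A) : m * a = a * m := h.prod.2.2.1 m hm a ha

theorem inf (h : PA P A M C z) {x : G} (hx : x ∈ M) (hx' : x ∈ A) : x = 1 := by
  have : x ∈ M ⊓ A := ⟨hx, hx'⟩
  rw [h.prod.2.2.2.1] at this
  exact mem_bot.1 this

theorem dec (h : PA P A M C z) {p : G} (hp : p ∈ P) : ∃ m ∈ M, ∃ a ∈ A, p = m * a := EssProd.exists_mul h.prod hp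

theorem aa (h : PA P A M C z) {a : G} (ha : a ∈ A) : a * a = 1 := by
  have := h.four
  exact congrArg Subtype.val (IsKleinFour.mul_self (⟨a, ha⟩ : A))

theorem A_comm (h : PA P A M C z) {a b : G} (ha : a ∈ A) (hb : b ∈ A) : a * b = b * a := by
  have := h.four
  have : IsMulCommutative A := IsKleinFour.isMulCommutative
  exact congrArg Subtype.val (this.is_comm.comm (⟨a, ha⟩ : A) ⟨b, hb⟩)

/-- three distinct nontrivial elements -/
theorem eq_of (h : PA P A M C z) {a b x : G} (ha : a ∈ A) (hb : b ∈ A) (hx : x ∈ A) (ha1 : a ≠ 1) (hb1 : b ≠ 1)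
    (hab : a ≠ b) : x = 1 ∨ x = a ∨ x = b ∨ x = a * b := by
  have := h.four
  by_contra hcon
  push Not at hcon
  apply hcon.2.2.2
  have := IsKleinFour.eq_mul_of_ne_all (x := (⟨a, ha⟩ : A)) (y := ⟨b, hb⟩) (z := ⟨x, hx⟩)
    (fun e => ha1 (congrArg Subtype.val e)) (fun e => hb1 (congrArg Subtype.val e))
    (fun e => hab (congrArg Subtype.val e)) (fun e => hcon.1 (congrArg Subtype.val e))
    (fun e => hcon.2.1 (congrArg Subtype.val e)) (fun e => hcon.2.2.1 (congrArg Subtype.val e))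
  exact congrArg Subtype.val this

theorem exists_ab (h : PA P A M C z) : ∃ a ∈ A, ∃ b ∈ A, a ≠ 1 ∧ b ≠ 1 ∧ a ≠ b := by
  have h4 := h.four.card_four
  have hfin : Finite A := Nat.finite_of_card_ne_zero (by rw [h4]; norm_num)
  have h1 : ∃ a : A, a ≠ 1 := by
    by_contra hcon
    push Not at hcon
    have : Subsingleton A := ⟨fun a b => by rw [hcon a, hcon b]⟩
    rw [Nat.card_of_subsingleton (1 : A)] at h4
    omega
  obtain ⟨a, ha⟩ := h1
  have h2 : ∃ b : A, b ≠ 1 ∧ b ≠ a := by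
    by_contra hcon
    push Not at hcon
    have h5 : (Set.univ : Set A) ⊆ {1, a} := by
      intro b _
      by_cases hb : b = 1
      · exact Or.inl hb
      · exact Or.inr (hcon b hb)
    have h6 := Set.ncard_le_ncard h5
    rw [Set.ncard_univ, h4] at h6
    have h7 := Set.ncard_insert_le (1 : A) {a}
    rw [Set.ncard_singleton] at h7
    omega
  obtain ⟨b, hb, hba⟩ := h2
  exact ⟨a, a.2, b, b.2, fun e => ha (Subtype.ext e), fun e => hb (Subtype.ext e), fun e => hba (Subtype.ext e.symm)⟩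

/-- a four-group is an `MQ` -/
theorem mqA (h : PA P A M C z) {a : G} (ha : a ∈ A) (ha1 : a ≠ 1) : MQ A (zpowers a) a := by
  have haa := h.aa ha
  have hmem : ∀ x, x ∈ zpowers a ↔ x = 1 ∨ x = a := fun x => mem_zp haa
  refine
    { le := zpowers_le.2 ha
      cyc := inferInstance
      two := IsPGroup.of_card (n := 2) (by rw [h.four.card_four]; norm_num)
      zC := mem_zpowers a
      z1 := ha1
      zz := haa
      uniq := fun x hx _ => (hmem x).1 hx
      out := fun w hw _ => Or.inl (h.aa hw)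
      inv := fun w hw _ x hx => ?_
      inv4 := fun w hw _ x hx _ => ?_
      idx := fun w hw hwC w' hw' hwC' => ?_ }
  · left
    have hxA : x ∈ A := (zpowers_le.2 ha) hx
    rw [h.A_comm hw hxA, mul_inv_cancel_right]
    exact (inv_eq_of_mul_eq_one_left (h.aa hxA)).symm
  · have hxA : x ∈ A := (zpowers_le.2 ha) hx
    rw [h.A_comm hw hxA, mul_inv_cancel_right]
    exact (inv_eq_of_mul_eq_one_left (h.aa hxA)).symm
  · rw [hmem] at hwC hwC' ⊢
    push Not at hwC hwC'
    rcases h.eq_of ha hw hw' ha1 hwC.1 (Ne.symm hwC.2) with h1 | h1 | h1 | h1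
    · exact absurd h1 hwC'.1
    · exact absurd h1 hwC'.2
    · left; rw [h1]; exact h.aa hw
    · right
      rw [h1, ← mul_assoc, h.A_comm hw ha, mul_assoc, h.aa hw, mul_one]

/-- the centre of `P` -/
def Z0 (h : PA P A M C z) : Subgroup G := mulS (zpowers z) A (by
  intro a ha b hb
  exact h.comm ((zpowers_le.2 h.full.zR) ha) hb)

theorem mem_Z0 (h : PA P A M C z) {x : G} : x ∈ h.Z0 ↔ ∃ e, (e = 1 ∨ e = z) ∧ ∃ a ∈ A, x = e * a := by
  rw [Z0, mem_mulS]
  constructor
  · rintro ⟨e, he, a, ha, rfl⟩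
    exact ⟨e, (mem_zp h.full.zz).1 he, a, ha, rfl⟩
  · rintro ⟨e, he, a, ha, rfl⟩
    exact ⟨e, (mem_zp h.full.zz).2 he, a, ha, rfl⟩

theorem A_Z0 (h : PA P A M C z) : A ≤ h.Z0 := fun a ha => h.mem_Z0.2 ⟨1, Or.inl rfl, a, ha, (one_mul a).symm⟩

theorem z_Z0 (h : PA P A M C z) : z ∈ h.Z0 := h.mem_Z0.2 ⟨z, Or.inr rfl, 1, one_mem _, (mul_one z).symm⟩

theorem eM (h : PA P A M C z) {e : G} (he : e = 1 ∨ e = z) : e ∈ M := by
  rcases he with rfl | rfl
  exacts [one_mem _, h.full.zR]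

theorem Z0_le (h : PA P A M C z) : h.Z0 ≤ P := by
  intro x hx
  obtain ⟨e, he, a, ha, rfl⟩ := h.mem_Z0.1 hx
  exact mul_mem (h.M_le (h.eM he)) (h.A_le ha)

theorem mul_eq (h : PA P A M C z) {r s a b : G} (hs : s ∈ M) (ha : a ∈ A) :
    r * a * (s * b) = (r * s) * (a * b) := by
  have := h.comm hs ha
  calc r * a * (s * b) = r * (a * s) * b := by group
    _ = r * (s * a) * b := by rw [this]
    _ = _ := by group

theorem Z0_cen (h : PA P A M C z) {x p : G} (hx : x ∈ h.Z0) (hp : p ∈ P) : Commute x p := by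
  obtain ⟨e, he, a, ha, rfl⟩ := h.mem_Z0.1 hx
  obtain ⟨m, hm, b, hb, rfl⟩ := h.dec hp
  have c1 : Commute e m := by
    rcases he with rfl | rfl
    · exact Commute.one_left _
    · exact (show Commute m e from h.full.zcen hm).symm
  have c2 : Commute e b := h.comm (h.eM he) hb
  have c3 : Commute a m := (h.comm hm ha).symm
  have c4 : Commute a b := h.A_comm ha hb
  exact (c1.mul_right c2).mul_left (c3.mul_right c4)

theorem ee (h : PA P A M C z) {e : G} (he : e = 1 ∨ e = z) : e * e = 1 := by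
  rcases he with rfl | rfl
  exacts [one_mul 1, h.full.zz]

theorem Z0_sq (h : PA P A M C z) {x : G} (hx : x ∈ h.Z0) : x * x = 1 := by
  obtain ⟨e, he, a, ha, rfl⟩ := h.mem_Z0.1 hx
  rw [h.mul_eq (h.eM he) ha, h.ee he, h.aa ha, mul_one]

theorem Z0_inv (h : PA P A M C z) {x : G} (hx : x ∈ h.Z0) : x⁻¹ = x := inv_eq_of_mul_eq_one_left (h.Z0_sq hx)

theorem Z0_M (h : PA P A M C z) {x : G} (hx : x ∈ h.Z0) (hx' : x ∈ M) : x = 1 ∨ x = z := by
  obtain ⟨e, he, a, ha, rfl⟩ := h.mem_Z0.1 hx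
  have h1 : a = 1 := h.inf ((M.mul_mem_cancel_left (h.eM he)).1 hx') ha
  rw [h1, mul_one]; exact he

theorem decX (h : PA P A M C z) (hXP : X ≤ P) (hAX : A ≤ X) {x : G} (hx : x ∈ X) : ∃ m ∈ X ⊓ M, ∃ a ∈ A, x = m * a := by
  obtain ⟨m, hm, a, ha, rfl⟩ := h.dec (hXP hx)
  exact ⟨m, ⟨(X.mul_mem_cancel_right (hAX ha)).1 hx, hm⟩, a, ha, rfl⟩

theorem conj_M (h : PA P A M C z) {p m : G} (hp : p ∈ P) (hm : m ∈ M) : p * m * p⁻¹ ∈ M := by
  obtain ⟨a, ha, b, hb, rfl⟩ := h.dec hp
  have c := h.comm hm hb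
  have e : a * b * m * (a * b)⁻¹ = a * m * a⁻¹ := by
    calc a * b * m * (a * b)⁻¹ = a * (b * m) * b⁻¹ * a⁻¹ := by group
      _ = a * (m * b) * b⁻¹ * a⁻¹ := by rw [c]
      _ = _ := by group
  rw [e]; exact mul_mem (mul_mem ha hm) (inv_mem ha)

/-- conjugation of `m` by `s a` -/
theorem conj_eq (h : PA P A M C z) {s a m : G} (hs : s ∈ M) (ha : a ∈ A) (hm : m ∈ M) :
    s * a * m * (s * a)⁻¹ = s * m * s⁻¹ := by
  have c := h.comm hm ha
  calc s * a * m * (s * a)⁻¹ = s * (a * m) * a⁻¹ * s⁻¹ := by group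
    _ = s * (m * a) * a⁻¹ * s⁻¹ := by rw [c]
    _ = _ := by group

end PA

section Ess

variable [Finite G] {P : Sylow 2 G} {A M C X : Subgroup G} {z : G}

theorem ess_ne_one {X : Subgroup G} (hX : EssDefs.Ess 2 (P : Subgroup G) X) {u : G} (hu : u ∈ (P : Subgroup G))
    (huX : u ∈ X ⊔ centralizer (X : Set G)) : u ∈ X := by
  have hC : centralizer (X : Set G) ≤ normalizer (X : Set G) := centralizer_le_normalizer _
  rw [← SetLike.mem_coe, coe_mul_of_right_le_normalizer_left X _ hC] at huX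
  obtain ⟨x, hx, c, hc, rfl⟩ := huX
  refine mul_mem hx (ess_cent hX ⟨hc, ?_⟩)
  exact ((P : Subgroup G).mul_mem_cancel_left ((ess_lt hX).le hx)).1 hu

/-- `N_P(X) C(X)` is not normal in `N_G(X)` -/
theorem ess_no_normal (hX : EssDefs.Ess 2 (P : Subgroup G) X) (K : Subgroup G)
    (hPK : (P : Subgroup G) ⊓ normalizer (X : Set G) ≤ K)
    (hK : K ≤ ((P : Subgroup G) ⊓ normalizer (X : Set G)) ⊔ centralizer (X : Set G))
    (hN : normalizer (X : Set G) ≤ normalizer (K : Set G)) : False := by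
  have : Fact (Nat.Prime 2) := ⟨Nat.prime_two⟩
  have hX' := hX
  obtain ⟨H, hH⟩ := hX'
  have hKH : K ≤ H := hK.trans (sup_le hH.inf_le (le_sup_right.trans hH.sup_le))
  obtain ⟨u, huP, huN, huX, huu⟩ := EssProd.exists_sq_mem P.isPGroup' (ess_lt hX)
  obtain ⟨x, hx, hxH⟩ : ∃ x ∈ normalizer (X : Set G), x ∉ H := by
    by_contra hcon
    push Not at hcon
    exact hH.ne (le_antisymm hH.le hcon)
  have huK : u ∈ K := hPK ⟨huP, huN⟩
  apply huX
  apply ess_ne_one hX huP
  refine hH.se x hx hxH u (hKH huK) (by rw [pow_two]; exact mem_sup_left huu) ?_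
  exact hKH (mem_normalizer_conj (hN hx) huK)

/-- **(F3)** -/
theorem PA.ess_triv (h : PA (P : Subgroup G) A M C z) (hX : EssDefs.Ess 2 (P : Subgroup G) X)
    (hN : normalizer (X : Set G) ≤ normalizer (h.Z0 : Set G))
    (hodd : ∀ g ∈ normalizer (X : Set G), Odd (orderOf g) → ∀ x ∈ X, g * x * g⁻¹ * x⁻¹ ∈ h.Z0) : False := by
  set K : Subgroup G := normalizer (X : Set G) ⊓ centralizer (h.Z0 : Set G) with hK
  have hPK : (P : Subgroup G) ⊓ normalizer (X : Set G) ≤ K := by
    rintro p ⟨hp, hp'⟩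
    exact ⟨hp', mem_cent.2 fun a ha => (h.Z0_cen ha hp).symm.eq⟩
  refine ess_no_normal hX K hPK ?_ ?_
  · apply ClassificationK.GTwoClosed.le_of_odd K _ ((P : Subgroup G) ⊓ normalizer (X : Set G)) le_sup_left
    · intro hdvd
      apply ess_dvd hX
      have : ((P : Subgroup G) ⊓ normalizer (X : Set G)).relIndex K ∣
          ((P : Subgroup G) ⊓ normalizer (X : Set G)).relIndex (normalizer (X : Set G)) := by
        rw [← relIndex_mul_relIndex _ K _ hPK inf_le_left]
        exact dvd_mul_right _ _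
      exact hdvd.trans this
    · rintro g ⟨hg, hg'⟩ ho
      refine mem_sup_right (mem_cent.2 fun x hx => ?_)
      have h1 := hodd g hg ho x hx
      exact commute_of P.isPGroup' ho (h.Z0_le h1) (a := g * x * g⁻¹ * x⁻¹) (by group) (mem_cent.1 hg' _ h1)
  · intro n hn
    apply mem_normalizer_of
    rintro x ⟨hx, hx'⟩
    exact mem_inf.2 ⟨mul_mem (mul_mem hn (show x ∈ normalizer (X : Set G) from hx)) (inv_mem hn),
      mem_normalizer_conj (normalizer_centralizer_le hN hn) hx'⟩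

theorem PA.ess_Z0 (h : PA (P : Subgroup G) A M C z) (hX : EssDefs.Ess 2 (P : Subgroup G) X) : h.Z0 ≤ X := by
  intro x hx
  exact ess_cent hX ⟨mem_cent.2 fun y hy => (h.Z0_cen hx ((ess_lt hX).le hy)).eq, h.Z0_le hx⟩

theorem PA.ess_mq (h : PA (P : Subgroup G) A M C z) (hX : EssDefs.Ess 2 (P : Subgroup G) X) :
    MQ (X ⊓ M) (C ⊓ (X ⊓ M)) z :=
  h.full.toMQ.sub inf_le_right ⟨h.ess_Z0 hX h.z_Z0, h.full.zR⟩

theorem cyc_uniq {R : Subgroup G} (hc : IsCyclic R) (hz : z ∈ R) (z1 : z ≠ 1) (zz : z * z = 1) {a : G} (ha : a ∈ R)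
    (haa : a * a = 1) : a = 1 ∨ a = z := by
  classical
  by_contra hcon
  push Not at hcon
  have hf : Fintype R := Fintype.ofFinite _
  have h1 := IsCyclic.card_pow_eq_one_le (α := R) (n := 2) (by norm_num)
  have h2 : ({1, (⟨z, hz⟩ : R), ⟨a, ha⟩} : Finset R) ⊆ Finset.univ.filter (fun x : R => x ^ 2 = 1) := by
    intro x hx
    simp only [Finset.mem_insert, Finset.mem_singleton] at hx
    rw [Finset.mem_filter]
    refine ⟨Finset.mem_univ _, ?_⟩
    rcases hx with rfl | rfl | rfl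
    · simp
    · rw [pow_two]; exact Subtype.ext zz
    · rw [pow_two]; exact Subtype.ext haa
  have h3 : ({1, (⟨z, hz⟩ : R), ⟨a, ha⟩} : Finset R).card = 3 := by
    rw [Finset.card_insert_of_notMem, Finset.card_insert_of_notMem, Finset.card_singleton]
    · rw [Finset.mem_singleton]
      intro e
      exact hcon.2 (congrArg Subtype.val e).symm
    · simp only [Finset.mem_insert, Finset.mem_singleton, not_or]
      refine ⟨fun e => z1 (congrArg Subtype.val e).symm, fun e => hcon.1 (congrArg Subtype.val e).symm⟩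
  have := Finset.card_le_card h2
  omega

/-- the two types -/
theorem PA.four_type (h : PA (P : Subgroup G) A M C z) (hX : EssDefs.Ess 2 (P : Subgroup G) X) :
    ((∀ a ∈ C ⊓ (X ⊓ M), a = 1 ∨ a = z) ∧ ∃ v ∈ X ⊓ M, v ∉ C ∧ v * v = 1) ∨
      ((∃ i ∈ C ⊓ (X ⊓ M), i * i = z) ∧ (∀ a ∈ C ⊓ (X ⊓ M), a * a * (a * a) = 1) ∧
        ∃ w ∈ X ⊓ M, w ∉ C ∧ w * w = z) := by
  have hmq := h.ess_mq hX
  have hZX := h.ess_Z0 hX
  have hAX : A ≤ X := h.A_Z0.trans hZX
  have hXP := (ess_lt hX).le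
  rcases hmq.types with h1 | h1 | ⟨h1, v, hv, hvD, hvv⟩ | ⟨h1, h2, v, hv, hvD, hvv⟩
  · exfalso
    have hRcomm : ∀ a ∈ X ⊓ M, ∀ b ∈ X ⊓ M, a * b = b * a := by
      intro a ha b hb
      have h2 : (⟨a, ha⟩ : (X ⊓ M : Subgroup G)) * ⟨b, hb⟩ = ⟨b, hb⟩ * ⟨a, ha⟩ := IsCyclic.commGroup.mul_comm _ _
      exact congrArg Subtype.val h2
    have hXcomm : ∀ x ∈ X, ∀ y ∈ X, x * y = y * x := by
      intro x hx y hy
      obtain ⟨r, hr, a, ha, rfl⟩ := h.decX hXP hAX hx
      obtain ⟨s, hs, b, hb, rfl⟩ := h.decX hXP hAX hy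
      rw [h.mul_eq hs.2 ha, h.mul_eq hr.2 hb, hRcomm r hr s hs, h.A_comm ha hb]
    have hsq : ∀ r ∈ X ⊓ M, ∀ a ∈ A, (r * a) * (r * a) = r * r := by
      intro r hr a ha
      rw [h.mul_eq hr.2 ha, h.aa ha, mul_one]
    have hmemZ : ∀ x ∈ X, x * x = 1 → x ∈ h.Z0 := by
      intro x hx hxx
      obtain ⟨r, hr, a, ha, rfl⟩ := h.decX hXP hAX hx
      rw [hsq r hr a ha] at hxx
      exact h.mem_Z0.2 ⟨r, cyc_uniq h1 hmq.zR hmq.z1 hmq.zz hr hxx, a, ha, rfl⟩
    let K : Subgroup G :=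
      { carrier := {x | ∃ r ∈ X ⊓ M, x = r * r}
        one_mem' := ⟨1, one_mem _, by simp⟩
        mul_mem' := by
          rintro _ _ ⟨a, ha, rfl⟩ ⟨b, hb, rfl⟩
          refine ⟨a * b, mul_mem ha hb, ?_⟩
          have := hRcomm a ha b hb
          calc a * a * (b * b) = a * (a * b) * b := by group
            _ = _ := by nth_rewrite 1 [this]; group
        inv_mem' := by
          rintro _ ⟨a, ha, rfl⟩
          exact ⟨a⁻¹, inv_mem ha, by group⟩ }
    have hKR : K ≤ X ⊓ M := by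
      rintro _ ⟨a, ha, rfl⟩
      exact mul_mem ha ha
    have hKc : IsCyclic K := isCyclic_of_injective (Subgroup.inclusion hKR) (Subgroup.inclusion_injective _)
    refine h.ess_triv hX ?_ ?_
    · intro n hn
      apply mem_normalizer_of
      intro x hx
      refine hmemZ _ (mem_normalizer_conj hn (hZX hx)) ?_
      rw [← conj_mul', h.Z0_sq hx]; group
    · intro g hg ho x hx
      obtain ⟨r, hr, a, ha, rfl⟩ := h.decX hXP hAX hx
      have hcr : Commute g (r * r) := by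
        refine commute_cyclic (P.isPGroup'.to_le ((hKR.trans inf_le_left).trans hXP)) hKc ho ?_ ⟨r, hr, rfl⟩
        rintro _ ⟨r, hr, rfl⟩
        obtain ⟨s, hs, b, hb, e⟩ := h.decX hXP hAX (mem_normalizer_conj hg hr.1)
        exact ⟨s, hs, by rw [conj_mul', e, hsq s hs b hb]⟩
      have hgx := mem_normalizer_conj hg hx
      apply hmemZ _ (mul_mem hgx (inv_mem hx))
      have c := hXcomm _ hgx _ (inv_mem hx)
      calc g * (r * a) * g⁻¹ * (r * a)⁻¹ * (g * (r * a) * g⁻¹ * (r * a)⁻¹)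
          = g * (r * a) * g⁻¹ * ((r * a)⁻¹ * (g * (r * a) * g⁻¹)) * (r * a)⁻¹ := by group
        _ = (g * ((r * a) * (r * a)) * g⁻¹) * ((r * a) * (r * a))⁻¹ := by rw [← c]; group
        _ = 1 := by rw [hsq r hr a ha, conj_eq_iff_commute.2 hcr, mul_inv_cancel]
  · exfalso
    obtain ⟨a, ha, -, -, ha1, -, -⟩ := h.exists_ab
    have D : Dat (X ⊓ M) (C ⊓ (X ⊓ M)) A (zpowers a) X z a :=
      { full := h1
        mq := h.mqA ha ha1
        two := P.isPGroup'.to_le hXP
        mr := fun m hm r hr => h.comm hm.2 hr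
        inf := fun x hx hx' => h.inf hx.2 hx'
        mem := fun x => by
          constructor
          · intro hx; exact h.decX hXP hAX hx
          · rintro ⟨m, hm, r, hr, rfl⟩
            exact mul_mem hm.1 (hAX hr) }
    have hZ0 : ∀ x, x ∈ Dat.CX (X ⊓ M) X ↔ x ∈ h.Z0 := fun x => by rw [D.mem_CX_iff, h.mem_Z0]
    refine h.ess_triv hX ?_ ?_
    · apply normalizer_le (P := P) (ess_dvd hX)
      · intro p hp _
        apply mem_normalizer_of
        intro x hx
        rw [conj_eq_iff_commute.2 (h.Z0_cen hx hp).symm]; exact hx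
      · intro g hg ho
        apply mem_normalizer_of
        intro x hx
        rw [← hZ0] at hx ⊢
        exact mem_normalizer_conj (D.normalizer_CX hg ho) hx
    · intro g hg ho x hx
      obtain ⟨r, hr, b, hb, rfl⟩ := h.decX hXP hAX hx
      obtain ⟨e, he, b', hb', e1⟩ := D.E_M hg ho hr
      have hbZ : b ∈ h.Z0 := h.A_Z0 hb
      have hb2 : g * b * g⁻¹ ∈ h.Z0 := by
        rw [← hZ0] at hbZ ⊢
        exact mem_normalizer_conj (D.normalizer_CX hg ho) hbZ
      have hebZ : e * b' ∈ h.Z0 := h.mem_Z0.2 ⟨e, he, b', (Dat.mem_ZR.1 hb').1, rfl⟩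
      have hrP : r ∈ (P : Subgroup G) := hXP hr.1
      have c1 := (h.Z0_cen (mul_mem hb2 (inv_mem hbZ)) hrP).eq
      have e2 : g * (r * b) * g⁻¹ * (r * b)⁻¹ = (e * b') * ((g * b * g⁻¹) * b⁻¹) := by
        rw [conj_mul', e1]
        calc e * b' * r * (g * b * g⁻¹) * (r * b)⁻¹ = e * b' * (r * ((g * b * g⁻¹) * b⁻¹)) * r⁻¹ := by group
          _ = _ := by rw [← c1]; group
      rw [e2]
      exact mul_mem hebZ (mul_mem hb2 (inv_mem hbZ))
  · exact Or.inl ⟨h1, v, hv, fun h' => hvD ⟨h', hv⟩, hvv⟩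
  · exact Or.inr ⟨h1, h2, v, hv, fun h' => hvD ⟨h', hv⟩, hvv⟩

end Ess

end Cfsg.Agent.H301.Data
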