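import Mathlib
import Cfsg.Agent.H301.Four
import Cfsg.Agent.TwoFusion.SimpleOddIndex

/-!
# Sylow 2-subgroups `P = M × A`, `A` a four-group: essential subgroups `V × A`, `V` a four-group

`v_out`: `X = W × A_X`, both normalised by `N_G(X)`.
-/

set_option autoImplicit false
set_option linter.unusedSectionVars false
set_option linter.unusedVariables false

namespace Cfsg.Agent.H301.Data

open Subgroup
open Cfsg.Agent.Lib.GoldschmidtFusion
open Cfsg.Agent.Lib
open Cfsg.Agent.H301.Cop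
open scoped commutatorElement

variable {G : Type*} [Group G]

/-- `s ^ k` fixes `x`, `k` odd, `s x s⁻¹ = y x`, `y` an involution fixed by `s` -/
theorem odd_fix {s x y : G} {k : ℕ} (hk : Odd k) (hx : Commute (s ^ k) x) (h : s * x * s⁻¹ = y * x)
    (hy : Commute s y) (hyy : y * y = 1) : Commute s x := by
  have key : ∀ n : ℕ, s ^ n * x * (s ^ n)⁻¹ = y ^ n * x := by
    intro n
    induction n with
    | zero => simp
    | succ n ih =>
      have e : s ^ (n + 1) * x * (s ^ (n + 1))⁻¹ = s * (s ^ n * x * (s ^ n)⁻¹) * s⁻¹ := by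
        rw [pow_succ']; group
      rw [e, ih, conj_mul', h, conj_eq_iff_commute.2 (hy.pow_right n), pow_succ]; group
  have h1 := key k
  rw [conj_eq_iff_commute.2 hx] at h1
  have h2 : y ^ k = 1 := mul_eq_right.1 h1.symm
  obtain ⟨m, rfl⟩ := hk
  have h3 : y = 1 := by
    rw [pow_succ, pow_mul, pow_two, hyy, one_pow, one_mul] at h2
    exact h2
  rw [h3, one_mul] at h
  exact conj_eq_iff_commute.1 h

/-- the data of a `V`-type essential subgroup -/
structure FV (P : Sylow 2 G) (A M C X : Subgroup G) (z v u : G) : Prop where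
  pa : PA (P : Subgroup G) A M C z
  ess : EssDefs.Ess 2 (P : Subgroup G) X
  D2 : ∀ a ∈ C ⊓ (X ⊓ M), a = 1 ∨ a = z
  vR : v ∈ X ⊓ M
  vC : v ∉ C
  vv : v * v = 1
  uM : u ∈ M
  uX : u ∉ X
  uN : u ∈ normalizer (X : Set G)
  uu : u * u ∈ X

/-- the output -/
structure VOut (Z0 X AX W : Subgroup G) (z : G) : Prop where
  a1 : AX ≤ Z0
  a2 : z ∉ AX
  a3 : ∀ c ∈ Z0, c ∈ AX ∨ c * z ∈ AX
  a4 : normalizer (X : Set G) ≤ normalizer (AX : Set G)
  w1 : z ∈ W
  w2 : W ≤ X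
  w3 : normalizer (X : Set G) ≤ normalizer (W : Set G)
  w4 : ∀ x ∈ W, x ∈ Z0 → x = 1 ∨ x = z
  w5 : ∀ x ∈ X, ∃ w ∈ W, ∃ a ∈ AX, x = w * a
  w6 : ∀ g ∈ normalizer (X : Set G), Odd (orderOf g) → Commute g z → ∀ w ∈ W, Commute g w

namespace FV

variable {P : Sylow 2 G} {A M C X : Subgroup G} {z v u : G} [Finite G]

theorem XP (h : FV P A M C X z v u) : X ≤ (P : Subgroup G) := (ess_lt h.ess).le

theorem AX (h : FV P A M C X z v u) : A ≤ X := h.pa.A_Z0.trans (h.pa.ess_Z0 h.ess)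

theorem ZX (h : FV P A M C X z v u) : h.pa.Z0 ≤ X := h.pa.ess_Z0 h.ess

theorem vz (h : FV P A M C X z v u) : v * z = z * v := h.pa.full.zcen h.vR.2

theorem memR (h : FV P A M C X z v u) {r : G} (hr : r ∈ X ⊓ M) : r = 1 ∨ r = z ∨ r = v ∨ r = v * z := by
  by_cases hrC : r ∈ C
  · rcases h.D2 r ⟨hrC, hr⟩ with h1 | h1
    · exact Or.inl h1
    · exact Or.inr (Or.inl h1)
  · have h1 : r * v ∈ C := h.pa.full.idx r hr.2 hrC v h.vR.2 h.vC
    have hvi : v⁻¹ = v := inv_eq_of_mul_eq_one_left h.vv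
    rcases h.D2 _ ⟨h1, mul_mem hr h.vR⟩ with h2 | h2
    · refine Or.inr (Or.inr (Or.inl ?_))
      rw [← hvi]; exact eq_inv_of_mul_eq_one_left h2
    · refine Or.inr (Or.inr (Or.inr ?_))
      have : r = z * v⁻¹ := eq_mul_inv_of_mul_eq h2
      rw [this, hvi, h.vz]

theorem v_not (h : FV P A M C X z v u) : v ∉ h.pa.Z0 := by
  intro hv
  apply h.vC
  rcases h.pa.Z0_M hv h.vR.2 with h1 | h1 <;> rw [h1]
  · exact one_mem _
  · exact h.pa.full.zC

theorem memX (h : FV P A M C X z v u) {x : G} (hx : x ∈ X) : x ∈ h.pa.Z0 ∨ ∃ c ∈ h.pa.Z0, x = c * v := by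
  obtain ⟨r, hr, a, ha, rfl⟩ := h.pa.decX h.XP h.AX hx
  have haZ := h.pa.A_Z0 ha
  have hzZ := h.pa.z_Z0
  have hva : v * a = a * v := h.pa.comm h.vR.2 ha
  rcases h.memR hr with rfl | rfl | rfl | rfl
  · left; exact mul_mem (one_mem _) haZ
  · left; exact mul_mem hzZ haZ
  · right; exact ⟨a, haZ, hva⟩
  · right
    refine ⟨z * a, mul_mem hzZ haZ, ?_⟩
    rw [h.vz, mul_assoc, hva, mul_assoc]

theorem not_mem (h : FV P A M C X z v u) {c : G} (hc : c ∈ h.pa.Z0) : c * v ∉ h.pa.Z0 := fun h1 =>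
  h.v_not (((h.pa.Z0).mul_mem_cancel_left hc).1 h1)

theorem Xcomm (h : FV P A M C X z v u) {x y : G} (hx : x ∈ X) (hy : y ∈ X) : Commute x y := by
  have key : ∀ x ∈ X, Commute x v := by
    intro x hx
    rcases h.memX hx with h1 | ⟨c, hc, rfl⟩
    · exact h.pa.Z0_cen h1 (h.XP h.vR.1)
    · exact (h.pa.Z0_cen hc (h.XP h.vR.1)).mul_left (Commute.refl v)
  rcases h.memX hy with h1 | ⟨c, hc, rfl⟩
  · exact (h.pa.Z0_cen h1 (h.XP hx)).symm
  · exact (h.pa.Z0_cen hc (h.XP hx)).symm.mul_right (key x hx)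

theorem Xsq (h : FV P A M C X z v u) {x : G} (hx : x ∈ X) : x * x = 1 := by
  rcases h.memX hx with h1 | ⟨c, hc, rfl⟩
  · exact h.pa.Z0_sq h1
  · have e := (h.pa.Z0_cen hc (h.XP h.vR.1)).eq
    calc c * v * (c * v) = c * (v * c) * v := by group
      _ = (c * c) * (v * v) := by rw [← e]; group
      _ = 1 := by rw [h.pa.Z0_sq hc, h.vv, one_mul]

/-- an element of `M` commuting with `v` lies in `X` -/
theorem cent_v (h : FV P A M C X z v u) {m : G} (hm : m ∈ M) (hc : m * v = v * m) : m ∈ X := by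
  have hX : ∀ a ∈ C, a * v = v * a → a ∈ X := by
    intro a ha hav
    have e : v * a * v⁻¹ = a := by rw [← hav]; group
    have : a * a = 1 := by
      rcases h.pa.full.inv v h.vR.2 h.vC a ha with e1 | e1
      · rw [e] at e1
        nth_rewrite 1 [e1]; group
      · rw [e] at e1
        have e2 : a * a = z := by
          nth_rewrite 1 [e1]
          have := h.pa.full.comm (inv_mem ha) h.pa.full.zC
          rw [this]; group
        have e3 := h.pa.full.inv4 v h.vR.2 h.vC a ha e2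
        rw [e] at e3
        nth_rewrite 1 [e3]; group
    rcases h.pa.full.uniq a ha this with rfl | rfl
    · exact one_mem _
    · exact h.ZX h.pa.z_Z0
  by_cases hmC : m ∈ C
  · exact hX m hmC hc
  · have h1 := hX (m * v) (h.pa.full.idx m hm hmC v h.vR.2 h.vC) (by
      rw [hc]; nth_rewrite 1 [mul_assoc]; rw [hc])
    exact (X.mul_mem_cancel_right h.vR.1).1 h1

theorem act_M (h : FV P A M C X z v u) {m : G} (hm : m ∈ M) (hmN : m ∈ normalizer (X : Set G)) :
    m * v * m⁻¹ = v ∨ m * v * m⁻¹ = v * z := by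
  have hvM : v ∈ M := h.vR.2
  have h1 : m * v * m⁻¹ ∈ X ⊓ M :=
    mem_inf.2 ⟨mem_normalizer_conj hmN h.vR.1, mul_mem (mul_mem hm hvM) (inv_mem hm)⟩
  rcases h.memR h1 with e | e | e | e
  · exfalso
    have : v = 1 := by
      have := congrArg (fun t => m⁻¹ * t * m) e
      simpa [mul_assoc] using this
    exact h.vC (by rw [this]; exact one_mem _)
  · exfalso
    rw [← conj_eq_iff_commute.2 (show Commute m z from h.pa.full.zcen hm)] at e
    have e4 := congrArg (fun t => m⁻¹ * t * m) e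
    simp only [mul_assoc, inv_mul_cancel_left, inv_mul_cancel, mul_one] at e4
    exact h.vC (by rw [e4]; exact h.pa.full.zC)
  · exact Or.inl e
  · exact Or.inr e

theorem uv (h : FV P A M C X z v u) : u * v * u⁻¹ = v * z := by
  rcases h.act_M h.uM h.uN with h1 | h1
  · exact absurd (h.cent_v h.uM (conj_eq_iff_commute.1 h1)) h.uX
  · exact h1

theorem uZ (h : FV P A M C X z v u) {c : G} (hc : c ∈ h.pa.Z0) : u * c * u⁻¹ = c :=
  conj_eq_iff_commute.2 (h.pa.Z0_cen hc (h.pa.M_le h.uM)).symm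

theorem act_u (h : FV P A M C X z v u) {x : G} (hx : x ∈ X) :
    (x ∈ h.pa.Z0 ∧ u * x * u⁻¹ = x) ∨ (x ∉ h.pa.Z0 ∧ u * x * u⁻¹ = x * z) := by
  rcases h.memX hx with h1 | ⟨c, hc, rfl⟩
  · exact Or.inl ⟨h1, h.uZ h1⟩
  · right
    refine ⟨h.not_mem hc, ?_⟩
    rw [conj_mul', h.uZ hc, h.uv, mul_assoc]

/-- elements of `N_P(X)` -/
theorem memT (h : FV P A M C X z v u) {p : G} (hp : p ∈ (P : Subgroup G)) (hpN : p ∈ normalizer (X : Set G)) :
    p ∈ X ∨ p * u ∈ X := by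
  obtain ⟨m, hm, a, ha, rfl⟩ := h.pa.dec hp
  have haX := h.AX ha
  have hmN : m ∈ normalizer (X : Set G) := ((normalizer (X : Set G)).mul_mem_cancel_right (le_normalizer haX)).1 hpN
  rcases h.act_M hm hmN with h1 | h1
  · left; exact mul_mem (h.cent_v hm (conj_eq_iff_commute.1 h1)) haX
  · right
    have h2 : (m * u) * v * (m * u)⁻¹ = v := by
      have e : (m * u) * v * (m * u)⁻¹ = m * (u * v * u⁻¹) * m⁻¹ := by group
      rw [e, h.uv, conj_mul', h1, conj_eq_iff_commute.2 (show Commute m z from h.pa.full.zcen hm), mul_assoc,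
        h.pa.full.zz, mul_one]
    have h3 := h.cent_v (mul_mem hm h.uM) (conj_eq_iff_commute.1 h2)
    have e : m * a * u = (m * u) * a := by
      have := h.pa.comm h.uM ha
      rw [mul_assoc, ← this]; group
    rw [e]
    exact mul_mem h3 haX

theorem u_not (h : FV P A M C X z v u) : u ∉ centralizer (X : Set G) := fun h1 =>
  h.uX (h.cent_v h.uM (mem_cent.1 h1 v h.vR.1))

theorem X_le_C (h : FV P A M C X z v u) : X ≤ centralizer (X : Set G) := fun x hx =>
  mem_cent.2 fun y hy => (h.Xcomm hx hy).eq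

/-- **(V1)** -/
theorem odd_prod (h : FV P A M C X z v u) {n : G} (hn : n ∈ normalizer (X : Set G)) :
    ∃ k : ℕ, Odd k ∧ (u * (n * u * n⁻¹)) ^ k ∈ centralizer (X : Set G) := by
  have : Fact (Nat.Prime 2) := ⟨Nat.prime_two⟩
  set N : Subgroup G := normalizer (X : Set G) with hN
  have hCN : centralizer (X : Set G) ≤ N := centralizer_le_normalizer _
  have hCn : ((centralizer (X : Set G)).subgroupOf N).Normal :=
    (normal_subgroupOf_iff_le_normalizer hCN).2 (normalizer_centralizer_le le_rfl)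
  set f := QuotientGroup.mk' ((centralizer (X : Set G)).subgroupOf N) with hf
  have hfs : Function.Surjective f := QuotientGroup.mk'_surjective _
  have hker : ∀ x : N, f x = 1 ↔ (x : G) ∈ centralizer (X : Set G) := by
    intro x
    rw [hf, QuotientGroup.mk'_apply, QuotientGroup.eq_one_iff, mem_subgroupOf]
  have hTp : IsPGroup 2 (((P : Subgroup G) ⊓ N).subgroupOf N) :=
    (P.isPGroup'.to_le inf_le_left).comap_of_injective N.subtype N.subtype_injective
  let S : Sylow 2 N := hTp.toSylow (ess_dvd h.ess)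
  let SQ : Sylow 2 (N ⧸ (centralizer (X : Set G)).subgroupOf N) := S.mapSurjective hfs
  let uN : N := ⟨u, h.uN⟩
  have hu1 : f uN ≠ 1 := fun h1 => h.u_not ((hker _).1 h1)
  have hu2 : f uN * f uN = 1 := by
    rw [← map_mul, hker]
    exact h.X_le_C h.uu
  have huS : f uN ∈ SQ.toSubgroup := by
    refine ⟨uN, ?_, rfl⟩
    exact mem_inf.2 ⟨h.pa.M_le h.uM, h.uN⟩
  have hSQ : SQ.toSubgroup = zpowers (f uN) := by
    apply le_antisymm
    · rintro _ ⟨⟨p, hpN⟩, hp, rfl⟩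
      have hp' : p ∈ (P : Subgroup G) := (mem_inf.1 hp).1
      rcases h.memT hp' hpN with h1 | h1
      · have : f ⟨p, hpN⟩ = 1 := (hker _).2 (h.X_le_C h1)
        change f ⟨p, hpN⟩ ∈ _
        rw [this]; exact one_mem _
      · have h2 : f ⟨p, hpN⟩ * f uN = 1 := by
          rw [← map_mul, hker]
          exact h.X_le_C h1
        change f ⟨p, hpN⟩ ∈ _
        rw [eq_inv_of_mul_eq_one_left h2]
        exact inv_mem (mem_zpowers _)
    · exact zpowers_le.2 huS
  have hord : orderOf (f uN) = 2 := orderOf_eq_prime (by rw [pow_two]; exact hu2) hu1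
  have hcardS : Nat.card SQ.toSubgroup = 2 := by rw [hSQ, Nat.card_zpowers, hord]
  have hcyc : IsCyclic SQ.toSubgroup := isCyclic_of_prime_card hcardS
  have hidx := SQ.toSubgroup.card_mul_index
  rw [hcardS] at hidx
  obtain ⟨H, hH⟩ := TwoFusion.SimpleOddIndex.exists_index_two_of_cyclic SQ hcyc ⟨_, hidx.symm⟩
  have hHn : H.Normal := Subgroup.normal_of_index_eq_two hH
  have hHodd : Odd (Nat.card H) := by
    have h1 := H.card_mul_index
    rw [hH, ← hidx, mul_comm] at h1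
    have h2 : Nat.card H = SQ.toSubgroup.index := Nat.eq_of_mul_eq_mul_left (by norm_num) h1
    rw [h2, ← Nat.not_even_iff_odd, even_iff_two_dvd]
    exact SQ.not_dvd_index
  have huH : f uN ∉ H := by
    intro h1
    have h2 : orderOf (⟨f uN, h1⟩ : H) ∣ Nat.card H := orderOf_dvd_natCard _
    rw [Subgroup.orderOf_mk, hord] at h2
    exact (Nat.not_even_iff_odd.2 hHodd) (even_iff_two_dvd.2 h2)
  let nN : N := ⟨n, hn⟩
  have hprod : f (uN * (nN * uN * nN⁻¹)) ∈ H := by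
    rw [map_mul, mul_mem_iff_of_index_two hH]
    refine iff_of_false huH ?_
    intro h1
    apply huH
    have h2 := hHn.conj_mem _ h1 (f nN)⁻¹
    rw [← map_inv, ← map_mul, ← map_inv, ← map_mul] at h2
    have e : nN⁻¹ * (nN * uN * nN⁻¹) * nN⁻¹⁻¹ = uN := by group
    rwa [e] at h2
  refine ⟨orderOf (f (uN * (nN * uN * nN⁻¹))), ?_, ?_⟩
  · have h2 : orderOf (⟨_, hprod⟩ : H) ∣ Nat.card H := orderOf_dvd_natCard _
    rw [Subgroup.orderOf_mk] at h2
    exact Odd.of_dvd_nat hHodd h2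
  · have h1 := pow_orderOf_eq_one (f (uN * (nN * uN * nN⁻¹)))
    rw [← map_pow, hker] at h1
    exact h1

/-- **(V2)** -/
theorem fix_z (h : FV P A M C X z v u) {n : G} (hn : n ∈ normalizer (X : Set G)) (hz : n * z * n⁻¹ ∈ h.pa.Z0) :
    u * (n * u * n⁻¹) ∈ centralizer (X : Set G) ∧ n * z * n⁻¹ = z := by
  obtain ⟨k, hk, hkC⟩ := h.odd_prod hn
  set t := n * u * n⁻¹ with ht
  set z' := n * z * n⁻¹ with hz'
  have hzX : z ∈ X := h.ZX h.pa.z_Z0
  have hz'X : z' ∈ X := mem_normalizer_conj hn hzX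
  have act : ∀ x ∈ X, t * x * t⁻¹ = x ∨ t * x * t⁻¹ = x * z' := by
    intro x hx
    have h1 := mem_normalizer_conj' hn hx
    have e : t * x * t⁻¹ = n * (u * (n⁻¹ * x * n) * u⁻¹) * n⁻¹ := by rw [ht]; group
    rw [e]
    rcases h.act_u h1 with ⟨-, h2⟩ | ⟨-, h2⟩ <;> rw [h2]
    · left; group
    · right; rw [hz']; group
  have tz' : t * z' * t⁻¹ = z' := by
    have e : t * z' * t⁻¹ = n * (u * z * u⁻¹) * n⁻¹ := by rw [ht, hz']; group
    rw [e, h.uZ h.pa.z_Z0]
  have uz' : u * z' * u⁻¹ = z' := h.uZ hz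
  have comm : ∀ x ∈ X, ∀ y ∈ X, x * y = y * x := fun x hx y hy => (h.Xcomm hx hy).eq
  have hsz' : Commute (u * t) z' := by
    rw [← conj_eq_iff_commute]
    have e : u * t * z' * (u * t)⁻¹ = u * (t * z' * t⁻¹) * u⁻¹ := by group
    rw [e, tz', uz']
  have hkx : ∀ x ∈ X, Commute ((u * t) ^ k) x := fun x hx => mem_cent.1 hkC x hx
  have hsz : Commute (u * t) z := by
    have e : u * t * z * (u * t)⁻¹ = u * (t * z * t⁻¹) * u⁻¹ := by group
    rcases act z hzX with h1 | h1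
    · rw [← conj_eq_iff_commute, e, h1, h.uZ h.pa.z_Z0]
    · refine odd_fix hk (hkx z hzX) (y := z') ?_ hsz' (h.Xsq hz'X)
      rw [e, h1, conj_mul', h.uZ h.pa.z_Z0, uz', comm z hzX z' hz'X]
  have hs : ∀ x ∈ X, Commute (u * t) x := by
    intro x hx
    have e : u * t * x * (u * t)⁻¹ = u * (t * x * t⁻¹) * u⁻¹ := by group
    have h1 : ∃ y, (y = 1 ∨ y = z ∨ y = z' ∨ y = z * z') ∧ u * t * x * (u * t)⁻¹ = y * x := by
      have hzz' : z * z' ∈ X := mul_mem hzX hz'X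
      rcases act x hx with h1 | h1 <;> rcases h.act_u hx with ⟨-, h2⟩ | ⟨-, h2⟩
      · exact ⟨1, Or.inl rfl, by rw [e, h1, h2, one_mul]⟩
      · exact ⟨z, Or.inr (Or.inl rfl), by rw [e, h1, h2, comm x hx z hzX]⟩
      · exact ⟨z', Or.inr (Or.inr (Or.inl rfl)), by rw [e, h1, conj_mul', h2, uz', comm x hx z' hz'X]⟩
      · refine ⟨z * z', Or.inr (Or.inr (Or.inr rfl)), ?_⟩
        rw [e, h1, conj_mul', h2, uz', mul_assoc, comm x hx _ hzz']
    obtain ⟨y, hy, e1⟩ := h1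
    refine odd_fix hk (hkx x hx) e1 ?_ ?_
    · rcases hy with rfl | rfl | rfl | rfl
      exacts [Commute.one_right _, hsz, hsz', hsz.mul_right hsz']
    · rcases hy with rfl | rfl | rfl | rfl
      exacts [one_mul 1, h.Xsq hzX, h.Xsq hz'X, h.Xsq (mul_mem hzX hz'X)]
  refine ⟨mem_cent.2 fun x hx => (hs x hx).eq, ?_⟩
  have hv := conj_eq_iff_commute.2 (hs v h.vR.1)
  have e : u * t * v * (u * t)⁻¹ = u * (t * v * t⁻¹) * u⁻¹ := by group
  rw [e] at hv
  rcases act v h.vR.1 with h1 | h1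
  · exfalso
    rw [h1, h.uv] at hv
    exact h.pa.full.z1 (mul_eq_left.1 hv)
  · rw [h1, conj_mul', h.uv, uz', mul_assoc] at hv
    have h2 : z * z' = 1 := mul_eq_left.1 hv
    have h3 : z' = z⁻¹ := eq_inv_of_mul_eq_one_right h2
    rw [h3]; exact inv_eq_of_mul_eq_one_left h.pa.full.zz

/-- **(V3)** -/
theorem exists_move (h : FV P A M C X z v u) : ∃ n ∈ normalizer (X : Set G), n * z * n⁻¹ ≠ z := by
  by_contra hcon
  push Not at hcon
  have hfix : ∀ n ∈ normalizer (X : Set G), u * (n * u * n⁻¹) ∈ centralizer (X : Set G) := by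
    intro n hn
    exact (h.fix_z hn (by rw [hcon n hn]; exact h.pa.z_Z0)).1
  refine ess_no_normal h.ess (((P : Subgroup G) ⊓ normalizer (X : Set G)) ⊔ centralizer (X : Set G)) le_sup_left
    le_rfl ?_
  intro n hn
  rw [mem_normalizer_iff_map_conj]
  apply map_conj_le_of_le_normalizer
  rw [Subgroup.map_sup]
  have hNC : normalizer (X : Set G) ≤ normalizer (centralizer (X : Set G) : Set G) := normalizer_centralizer_le le_rfl
  have hu : n * u * n⁻¹ ∈ ((P : Subgroup G) ⊓ normalizer (X : Set G)) ⊔ centralizer (X : Set G) := by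
    have h1 : n * u * n⁻¹ = u⁻¹ * (u * (n * u * n⁻¹)) := by group
    rw [h1]
    exact mul_mem (inv_mem (mem_sup_left (mem_inf.2 ⟨h.pa.M_le h.uM, h.uN⟩))) (mem_sup_right (hfix n hn))
  have hX : ∀ x ∈ X, n * x * n⁻¹ ∈ ((P : Subgroup G) ⊓ normalizer (X : Set G)) ⊔ centralizer (X : Set G) :=
    fun x hx => mem_sup_left (mem_inf.2 ⟨h.XP (mem_normalizer_conj hn hx), le_normalizer (mem_normalizer_conj hn hx)⟩)
  apply sup_le
  · rintro _ ⟨p, ⟨hp, hpN⟩, rfl⟩
    change n * p * n⁻¹ ∈ _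
    rcases h.memT hp hpN with h1 | h1
    · exact hX p h1
    · have e : n * p * n⁻¹ = (n * (p * u) * n⁻¹) * (n * u * n⁻¹)⁻¹ := by group
      rw [e]
      exact mul_mem (hX _ h1) (inv_mem hu)
  · rintro _ ⟨c, hc, rfl⟩
    exact mem_sup_right (mem_normalizer_conj (hNC hn) hc)

/-- the fixed points of all conjugates of `u` -/
def AX' (_ : FV P A M C X z v u) : Subgroup G where
  carrier := {x | x ∈ X ∧ ∀ k ∈ normalizer (X : Set G), Commute (k * u * k⁻¹) x}
  one_mem' := ⟨one_mem _, fun k _ => Commute.one_right _⟩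
  mul_mem' := by
    rintro a b ⟨ha, ha'⟩ ⟨hb, hb'⟩
    exact ⟨mul_mem ha hb, fun k hk => (ha' k hk).mul_right (hb' k hk)⟩
  inv_mem' := by
    rintro a ⟨ha, ha'⟩
    exact ⟨inv_mem ha, fun k hk => (ha' k hk).inv_right⟩

theorem mem_AX' (h : FV P A M C X z v u) {x : G} :
    x ∈ h.AX' ↔ x ∈ X ∧ ∀ k ∈ normalizer (X : Set G), Commute (k * u * k⁻¹) x := Iff.rfl

theorem AX'_Z0 (h : FV P A M C X z v u) : h.AX' ≤ h.pa.Z0 := by
  intro x hx
  have h1 := hx.2 1 (one_mem _)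
  rcases h.act_u hx.1 with ⟨h2, -⟩ | ⟨-, h2⟩
  · exact h2
  · exfalso
    have e : (1 : G) * u * (1 : G)⁻¹ = u := by group
    rw [e, ← conj_eq_iff_commute, h2] at h1
    exact h.pa.full.z1 (mul_eq_left.1 h1)

theorem N_AX' (h : FV P A M C X z v u) : normalizer (X : Set G) ≤ normalizer (h.AX' : Set G) := by
  intro n hn
  apply mem_normalizer_of
  intro x hx
  refine ⟨mem_normalizer_conj hn hx.1, fun k hk => ?_⟩
  have h1 := hx.2 (n⁻¹ * k) (mul_mem (inv_mem hn) hk)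
  have h2 := Dat.conj_comm (n := n) h1.eq
  have e : n * (n⁻¹ * k * u * (n⁻¹ * k)⁻¹) * n⁻¹ = k * u * k⁻¹ := by group
  rw [e] at h2
  exact h2

/-- the conjugates of `z` -/
theorem zN (h : FV P A M C X z v u) {n k : G} (hn : n ∈ normalizer (X : Set G)) (hnz : n * z * n⁻¹ ≠ z)
    (hk : k ∈ normalizer (X : Set G)) :
    k * z * k⁻¹ = z ∨ k * z * k⁻¹ = n * z * n⁻¹ ∨ k * z * k⁻¹ = z * (n * z * n⁻¹) := by
  set z' := n * z * n⁻¹ with hz'
  have hzX : z ∈ X := h.ZX h.pa.z_Z0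
  have hz'X : z' ∈ X := mem_normalizer_conj hn hzX
  have hz'0 : z' ∉ h.pa.Z0 := fun h1 => hnz (h.fix_z hn h1).2
  by_cases h1 : k * z * k⁻¹ = z
  · exact Or.inl h1
  right
  by_cases h2 : k * z * k⁻¹ = z'
  · exact Or.inl h2
  right
  set y := k * z * k⁻¹ with hy
  have hyX : y ∈ X := mem_normalizer_conj hk hzX
  have hy0 : y ∉ h.pa.Z0 := fun h3 => h1 (h.fix_z hk h3).2
  have comm : ∀ x ∈ X, ∀ y ∈ X, x * y = y * x := fun x hx y hy => (h.Xcomm hx hy).eq
  -- `y z' ∈ Z0`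
  have hyz : y * z' ∈ h.pa.Z0 := by
    rcases h.memX hyX with h3 | ⟨c, hc, e1⟩
    · exact absurd h3 hy0
    rcases h.memX hz'X with h3 | ⟨d, hd, e2⟩
    · exact absurd h3 hz'0
    rw [e1, e2]
    have c1 := comm v h.vR.1 d (h.ZX hd)
    have : c * v * (d * v) = c * d := by
      calc c * v * (d * v) = c * (v * d) * v := by group
        _ = (c * d) * (v * v) := by rw [c1]; group
        _ = c * d := by rw [h.vv, mul_one]
    rw [this]; exact mul_mem hc hd
  -- `y z'` is a conjugate of `z`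
  have hy1 : (n⁻¹ * k) * z * (n⁻¹ * k)⁻¹ ∉ h.pa.Z0 := by
    intro h3
    have h4 := (h.fix_z (mul_mem (inv_mem hn) hk) h3).2
    apply h2
    rw [hy, hz']
    have h5 := congrArg (fun t => n * t * n⁻¹) h4
    have e : n * (n⁻¹ * k * z * (n⁻¹ * k)⁻¹) * n⁻¹ = k * z * k⁻¹ := by group
    simp only [e] at h5
    exact h5
  have hy1X : (n⁻¹ * k) * z * (n⁻¹ * k)⁻¹ ∈ X := mem_normalizer_conj (mul_mem (inv_mem hn) hk) hzX
  have h3 : u * ((n⁻¹ * k) * z * (n⁻¹ * k)⁻¹) * u⁻¹ = ((n⁻¹ * k) * z * (n⁻¹ * k)⁻¹) * z := by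
    rcases h.act_u hy1X with ⟨h4, -⟩ | ⟨-, h4⟩
    · exact absurd h4 hy1
    · exact h4
  have h4 : (n * u * (n⁻¹ * k)) * z * (n * u * (n⁻¹ * k))⁻¹ = y * z' := by
    have e : (n * u * (n⁻¹ * k)) * z * (n * u * (n⁻¹ * k))⁻¹ = n * (u * ((n⁻¹ * k) * z * (n⁻¹ * k)⁻¹) * u⁻¹) * n⁻¹ := by
      group
    rw [e, h3, hy, hz']; group
  have h5 := (h.fix_z (n := n * u * (n⁻¹ * k)) (mul_mem (mul_mem hn h.uN) (mul_mem (inv_mem hn) hk))
    (by rw [h4]; exact hyz)).2
  rw [h4] at h5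
  have h6 : y = z * z'⁻¹ := eq_mul_inv_of_mul_eq h5
  rw [h6, inv_eq_of_mul_eq_one_left (h.Xsq hz'X)]

theorem act_t (h : FV P A M C X z v u) {n x : G} (hn : n ∈ normalizer (X : Set G)) (hx : x ∈ X) :
    (n * u * n⁻¹) * x * (n * u * n⁻¹)⁻¹ = x ∨ (n * u * n⁻¹) * x * (n * u * n⁻¹)⁻¹ = x * (n * z * n⁻¹) := by
  have h1 := mem_normalizer_conj' hn hx
  have e : (n * u * n⁻¹) * x * (n * u * n⁻¹)⁻¹ = n * (u * (n⁻¹ * x * n) * u⁻¹) * n⁻¹ := by group
  rw [e]
  rcases h.act_u h1 with ⟨-, h2⟩ | ⟨-, h2⟩ <;> rw [h2]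
  · left; group
  · right; group

/-- if `k` and `n` move `z` to the same element, `k u k⁻¹` and `n u n⁻¹` act in the same way on `X` -/
theorem same_act (h : FV P A M C X z v u) {n k x : G} (hn : n ∈ normalizer (X : Set G))
    (hk : k ∈ normalizer (X : Set G)) (he : k * z * k⁻¹ = n * z * n⁻¹) (hx : x ∈ X)
    (hc : Commute (n * u * n⁻¹) x) : Commute (k * u * k⁻¹) x := by
  have h1 : (n⁻¹ * k) * z * (n⁻¹ * k)⁻¹ = z := by
    have e : (n⁻¹ * k) * z * (n⁻¹ * k)⁻¹ = n⁻¹ * (k * z * k⁻¹) * n := by group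
    rw [e, he]; group
  have h2 := (h.fix_z (mul_mem (inv_mem hn) hk) (by rw [h1]; exact h.pa.z_Z0)).1
  have h3 := mem_normalizer_conj (normalizer_centralizer_le (N := normalizer (X : Set G)) le_rfl hn) h2
  have e : n * (u * (n⁻¹ * k * u * (n⁻¹ * k)⁻¹)) * n⁻¹ = (n * u * n⁻¹) * (k * u * k⁻¹) := by group
  rw [e] at h3
  have h4 : Commute ((n * u * n⁻¹) * (k * u * k⁻¹)) x := mem_cent.1 h3 x hx
  have h5 : k * u * k⁻¹ = (n * u * n⁻¹)⁻¹ * ((n * u * n⁻¹) * (k * u * k⁻¹)) := by group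
  rw [h5]
  exact hc.inv_left.mul_left h4

theorem AX'_of (h : FV P A M C X z v u) {n x : G} (hn : n ∈ normalizer (X : Set G)) (hnz : n * z * n⁻¹ ≠ z)
    (hx : x ∈ h.pa.Z0) (hc : Commute (n * u * n⁻¹) x) : x ∈ h.AX' := by
  have hxX := h.ZX hx
  have hux : Commute u x := conj_eq_iff_commute.1 (h.uZ hx)
  refine ⟨hxX, fun k hk => ?_⟩
  rcases h.zN hn hnz hk with h1 | h1 | h1
  · refine h.same_act (one_mem _) hk (by rw [h1]; group) hxX ?_
    have e : (1 : G) * u * (1 : G)⁻¹ = u := by group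
    rw [e]; exact hux
  · exact h.same_act hn hk h1 hxX hc
  · refine h.same_act (mul_mem h.uN hn) hk ?_ hxX ?_
    · have hz'X : n * z * n⁻¹ ∈ X := mem_normalizer_conj hn (h.ZX h.pa.z_Z0)
      have e : (u * n) * z * (u * n)⁻¹ = u * (n * z * n⁻¹) * u⁻¹ := by group
      rw [h1, e]
      rcases h.act_u hz'X with ⟨h2, -⟩ | ⟨-, h2⟩
      · exact absurd (h.fix_z hn h2).2 hnz
      · rw [h2]; exact (h.Xcomm (h.ZX h.pa.z_Z0) hz'X).eq
    · have e : u * n * u * (u * n)⁻¹ = u * (n * u * n⁻¹) * u⁻¹ := by group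
      rw [e]
      exact (hux.mul_left hc).mul_left hux.inv_left

/-- **Theorem.** The output of the analysis. -/
theorem out (h : FV P A M C X z v u) : ∃ AX W : Subgroup G, VOut h.pa.Z0 X AX W z := by
  obtain ⟨n, hn, hnz⟩ := h.exists_move
  have hzX : z ∈ X := h.ZX h.pa.z_Z0
  have hz'X : n * z * n⁻¹ ∈ X := mem_normalizer_conj hn hzX
  have hz'0 : n * z * n⁻¹ ∉ h.pa.Z0 := fun h1 => hnz (h.fix_z hn h1).2
  have hzz : z * z = 1 := h.pa.full.zz
  have hz'z' : (n * z * n⁻¹) * (n * z * n⁻¹) = 1 := h.Xsq hz'X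
  have comm : ∀ x ∈ X, ∀ y ∈ X, x * y = y * x := fun x hx y hy => (h.Xcomm hx hy).eq
  have hzA : z ∉ h.AX' := by
    intro h1
    apply hnz
    -- `n⁻¹ u n` commutes with `z`, so `n z n⁻¹ ∈ Z0`
    have h2 := h1.2 n⁻¹ (inv_mem hn)
    have h3 := Dat.conj_comm (n := n) h2.eq
    have e : n * (n⁻¹ * u * n⁻¹⁻¹) * n⁻¹ = u := by group
    rw [e] at h3
    rcases h.act_u hz'X with ⟨h4, -⟩ | ⟨-, h4⟩
    · exact (h.fix_z hn h4).2
    · exfalso
      rw [conj_eq_iff_commute.2 h3] at h4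
      exact h.pa.full.z1 (mul_eq_left.1 h4.symm)
  -- `t z t⁻¹ = z z'`
  have htz : (n * u * n⁻¹) * z * (n * u * n⁻¹)⁻¹ = z * (n * z * n⁻¹) := by
    rcases h.act_t hn hzX with h1 | h1
    · exact absurd (h.AX'_of hn hnz h.pa.z_Z0 (conj_eq_iff_commute.1 h1)) hzA
    · exact h1
  have hWc : ∀ a ∈ zpowers z, ∀ b ∈ zpowers (n * z * n⁻¹), a * b = b * a := by
    intro a ha b hb
    exact comm a ((zpowers_le.2 hzX) ha) b ((zpowers_le.2 hz'X) hb)
  set W : Subgroup G := mulS (zpowers z) (zpowers (n * z * n⁻¹)) hWc with hW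
  have hmemW : ∀ x, x ∈ W ↔ x = 1 ∨ x = z ∨ x = n * z * n⁻¹ ∨ x = z * (n * z * n⁻¹) := by
    intro x
    rw [hW, mem_mulS]
    constructor
    · rintro ⟨a, ha, b, hb, rfl⟩
      rcases (mem_zp hzz).1 ha with rfl | rfl <;> rcases (mem_zp hz'z').1 hb with rfl | rfl
      · left; simp
      · right; right; left; simp
      · right; left; simp
      · right; right; right; rfl
    · rintro (rfl | rfl | rfl | rfl)
      · exact ⟨1, one_mem _, 1, one_mem _, by simp⟩
      · exact ⟨x, mem_zpowers _, 1, one_mem _, by simp⟩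
      · exact ⟨1, one_mem _, n * z * n⁻¹, mem_zpowers _, by simp⟩
      · exact ⟨z, mem_zpowers _, n * z * n⁻¹, mem_zpowers _, rfl⟩
  have hWX : W ≤ X := by
    intro x hx
    rcases (hmemW x).1 hx with rfl | rfl | rfl | rfl
    exacts [one_mem _, hzX, hz'X, mul_mem hzX hz'X]
  have hNz : ∀ k ∈ normalizer (X : Set G), k * z * k⁻¹ ∈ W := by
    intro k hk
    rw [hmemW]
    exact Or.inr (h.zN hn hnz hk)
  refine ⟨h.AX', W,
    { a1 := h.AX'_Z0
      a2 := hzA
      a3 := ?_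
      a4 := h.N_AX'
      w1 := (hmemW z).2 (Or.inr (Or.inl rfl))
      w2 := hWX
      w3 := ?_
      w4 := ?_
      w5 := ?_
      w6 := ?_ }⟩
  · intro c hc
    rcases h.act_t hn (h.ZX hc) with h1 | h1
    · exact Or.inl (h.AX'_of hn hnz hc (conj_eq_iff_commute.1 h1))
    · right
      refine h.AX'_of hn hnz (mul_mem hc h.pa.z_Z0) ?_
      rw [← conj_eq_iff_commute, conj_mul', h1, htz]
      have c1 := comm (n * z * n⁻¹) hz'X z hzX
      calc c * (n * z * n⁻¹) * (z * (n * z * n⁻¹)) = c * ((n * z * n⁻¹) * z) * (n * z * n⁻¹) := by group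
        _ = c * (z * (n * z * n⁻¹)) * (n * z * n⁻¹) := by rw [c1]
        _ = c * z * ((n * z * n⁻¹) * (n * z * n⁻¹)) := by group
        _ = c * z := by rw [hz'z', mul_one]
  · intro k hk
    apply mem_normalizer_of
    intro x hx
    have h1 : k * z * k⁻¹ ∈ W := hNz k hk
    have h2 : k * (n * z * n⁻¹) * k⁻¹ ∈ W := by
      have e : k * (n * z * n⁻¹) * k⁻¹ = (k * n) * z * (k * n)⁻¹ := by group
      rw [e]; exact hNz _ (mul_mem hk hn)
    rcases (hmemW x).1 hx with rfl | rfl | rfl | rfl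
    · have : k * 1 * k⁻¹ = 1 := by group
      rw [this]; exact one_mem _
    · exact h1
    · exact h2
    · rw [conj_mul']; exact mul_mem h1 h2
  · intro x hx hx0
    rcases (hmemW x).1 hx with rfl | rfl | rfl | rfl
    · exact Or.inl rfl
    · exact Or.inr rfl
    · exact absurd hx0 hz'0
    · exact absurd (((h.pa.Z0).mul_mem_cancel_left h.pa.z_Z0).1 hx0) hz'0
  · -- the decomposition
    have a3 : ∀ c ∈ h.pa.Z0, ∃ w ∈ W, ∃ a ∈ h.AX', c = w * a := by
      intro c hc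
      have key : c ∈ h.AX' ∨ c * z ∈ h.AX' := by
        rcases h.act_t hn (h.ZX hc) with h1 | h1
        · exact Or.inl (h.AX'_of hn hnz hc (conj_eq_iff_commute.1 h1))
        · right
          refine h.AX'_of hn hnz (mul_mem hc h.pa.z_Z0) ?_
          rw [← conj_eq_iff_commute, conj_mul', h1, htz]
          have c1 := comm (n * z * n⁻¹) hz'X z hzX
          calc c * (n * z * n⁻¹) * (z * (n * z * n⁻¹)) = c * ((n * z * n⁻¹) * z) * (n * z * n⁻¹) := by group
            _ = c * (z * (n * z * n⁻¹)) * (n * z * n⁻¹) := by rw [c1]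
            _ = c * z * ((n * z * n⁻¹) * (n * z * n⁻¹)) := by group
            _ = c * z := by rw [hz'z', mul_one]
      rcases key with h1 | h1
      · exact ⟨1, one_mem _, c, h1, (one_mul c).symm⟩
      · refine ⟨z, (hmemW z).2 (Or.inr (Or.inl rfl)), c * z, h1, ?_⟩
        rw [comm c (h.ZX hc) z hzX, ← mul_assoc, hzz, one_mul]
    intro x hx
    by_cases hx0 : x ∈ h.pa.Z0
    · exact a3 x hx0
    · -- `x z' ∈ Z0`
      have h1 : (n * z * n⁻¹) * x ∈ h.pa.Z0 := by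
        rcases h.memX hx with h3 | ⟨c, hc, e1⟩
        · exact absurd h3 hx0
        rcases h.memX hz'X with h3 | ⟨d, hd, e2⟩
        · exact absurd h3 hz'0
        rw [e1, e2]
        have c1 := comm v h.vR.1 c (h.ZX hc)
        have : d * v * (c * v) = d * c := by
          calc d * v * (c * v) = d * (v * c) * v := by group
            _ = (d * c) * (v * v) := by rw [c1]; group
            _ = d * c := by rw [h.vv, mul_one]
        rw [this]; exact mul_mem hd hc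
      obtain ⟨w, hw, a, ha, e⟩ := a3 _ h1
      refine ⟨(n * z * n⁻¹) * w, mul_mem ((hmemW _).2 (Or.inr (Or.inr (Or.inl rfl)))) hw, a, ha, ?_⟩
      rw [mul_assoc, ← e, ← mul_assoc, hz'z', one_mul]
  · intro g hg ho hgz w hw
    have hgz' : Commute g (n * z * n⁻¹) := by
      have h2 : g * (n * z * n⁻¹) * g⁻¹ ∈ X := mem_normalizer_conj hg hz'X
      have e : g * (n * z * n⁻¹) * g⁻¹ = (g * n) * z * (g * n)⁻¹ := by group
      rcases h.zN hn hnz (mul_mem hg hn) with h1 | h1 | h1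
      · exfalso
        rw [← e] at h1
        have e4 := congrArg (fun t => g⁻¹ * t * g) (h1.trans (conj_eq_iff_commute.2 hgz).symm)
        have e5 : ∀ x : G, g⁻¹ * (g * x * g⁻¹) * g = x := fun x => by group
        simp only [e5] at e4
        exact hnz e4
      · rw [← conj_eq_iff_commute, e]; exact h1
      · exact commute_of P.isPGroup' ho (a := z) (h.XP hzX) (by rw [e]; exact h1) hgz
    rcases (hmemW w).1 hw with rfl | rfl | rfl | rfl
    exacts [Commute.one_right _, hgz, hgz', hgz.mul_right hgz']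

end FV

/-- **Theorem.** The `V`-type essential subgroups. -/
theorem v_out {P : Sylow 2 G} {A M C X : Subgroup G} {z v : G} [Finite G] (h : PA (P : Subgroup G) A M C z)
    (hX : EssDefs.Ess 2 (P : Subgroup G) X) (hD : ∀ a ∈ C ⊓ (X ⊓ M), a = 1 ∨ a = z) (hv : v ∈ X ⊓ M)
    (hvC : v ∉ C) (hvv : v * v = 1) : ∃ AX W : Subgroup G, VOut h.Z0 X AX W z := by
  obtain ⟨b, hbP, hbN, hbX, hbb⟩ := EssProd.exists_sq_mem P.isPGroup' (ess_lt hX)
  have hAX : A ≤ X := h.A_Z0.trans (h.ess_Z0 hX)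
  obtain ⟨m, hm, a, ha, rfl⟩ := h.dec hbP
  have hmX : m ∉ X := fun h1 => hbX (mul_mem h1 (hAX ha))
  have hmN : m ∈ normalizer (X : Set G) :=
    ((normalizer (X : Set G)).mul_mem_cancel_right (le_normalizer (hAX ha))).1 hbN
  have hmm : m * m ∈ X := by
    rw [h.mul_eq hm ha, h.aa ha, mul_one] at hbb; exact hbb
  have hFV : FV P A M C X z v m :=
    { pa := h, ess := hX, D2 := hD, vR := hv, vC := hvC, vv := hvv, uM := hm, uX := hmX, uN := hmN, uu := hmm }
  exact hFV.out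

end Cfsg.Agent.H301.Data
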