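import Mathlib
import Cfsg.Agent.H301.FourV
import Cfsg.Agent.H301.Split

/-!
# Sylow 2-subgroups `P = M × A`, `A` a four-group, with an element of odd order acting on `A`

`C1.pf`: if some element of odd order of `N_G(P)` does not centralise `P`, then `P = A* × B*`, the product of two
strongly closed subgroups.
-/

set_option autoImplicit false
set_option linter.unusedSectionVars false
set_option linter.unusedVariables false

namespace Cfsg.Agent.H301.Data

open Subgroup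
open Cfsg.Agent.Lib.GoldschmidtFusion
open Cfsg.Agent.Lib
open Cfsg.Agent.H301.Cop
open Cfsg.Agent.StdRank2.Split (CM mem_CM le_normalizer_CM le_of_sylow)
open scoped commutatorElement

variable {G : Type*} [Group G]

namespace PA

section

variable {P A M C X : Subgroup G} {z : G}

theorem mulE (h : PA P A M C z) {e f : G} (he : e = 1 ∨ e = z) (hf : f = 1 ∨ f = z) : e * f = 1 ∨ e * f = z := by
  rcases he with rfl | rfl <;> rcases hf with rfl | rfl
  · left; simp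
  · right; simp
  · right; simp
  · left; exact h.full.zz

theorem mem_Z0_iff [Finite G] (h : PA P A M C z) {x : G} : x ∈ h.Z0 ↔ x ∈ P ∧ ∀ p ∈ P, Commute x p := by
  constructor
  · intro hx
    exact ⟨h.Z0_le hx, fun p hp => h.Z0_cen hx hp⟩
  · rintro ⟨hx, hc⟩
    obtain ⟨m, hm, a, ha, rfl⟩ := h.dec hx
    refine h.mem_Z0.2 ⟨m, h.full.mem_center hm (fun s hs => ?_), a, ha, rfl⟩
    have h1 := (hc s (h.M_le hs)).eq
    have h2 := h.comm hs ha
    have h3 : m * s * a = s * m * a := by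
      calc m * s * a = m * (s * a) := by group
        _ = m * a * s := by rw [h2]; group
        _ = _ := by rw [h1]; group
    exact mul_right_cancel h3

/-- `Z0 / ⟨z⟩` is a four-group -/
theorem Z0_four (h : PA P A M C z) {x y w : G} (hx : x ∈ h.Z0) (hy : y ∈ h.Z0) (hw : w ∈ h.Z0)
    (hx1 : ¬ (x = 1 ∨ x = z)) (hy1 : ¬ (y = 1 ∨ y = z)) (hxy : ¬ (x * y = 1 ∨ x * y = z)) :
    ∃ e, (e = 1 ∨ e = z) ∧ (w = e ∨ w = e * x ∨ w = e * y ∨ w = e * (x * y)) := by
  obtain ⟨e₁, he₁, a₁, ha₁, rfl⟩ := h.mem_Z0.1 hx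
  obtain ⟨e₂, he₂, a₂, ha₂, rfl⟩ := h.mem_Z0.1 hy
  obtain ⟨e₃, he₃, a₃, ha₃, rfl⟩ := h.mem_Z0.1 hw
  have n1 : a₁ ≠ 1 := by rintro rfl; exact hx1 (by rwa [mul_one])
  have n2 : a₂ ≠ 1 := by rintro rfl; exact hy1 (by rwa [mul_one])
  have n3 : a₁ ≠ a₂ := by
    intro e
    apply hxy
    rw [h.mul_eq (h.eM he₂) ha₁, e, h.aa ha₂, mul_one]
    exact h.mulE he₁ he₂
  rcases h.eq_of ha₁ ha₂ ha₃ n1 n2 n3 with e | e | e | e
  · exact ⟨e₃, he₃, Or.inl (by rw [e, mul_one])⟩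
  · refine ⟨e₃ * e₁, h.mulE he₃ he₁, Or.inr (Or.inl ?_)⟩
    rw [e, mul_assoc, ← mul_assoc e₁ e₁, h.ee he₁, one_mul]
  · refine ⟨e₃ * e₂, h.mulE he₃ he₂, Or.inr (Or.inr (Or.inl ?_))⟩
    rw [e, mul_assoc, ← mul_assoc e₂ e₂, h.ee he₂, one_mul]
  · refine ⟨e₃ * (e₁ * e₂), h.mulE he₃ (h.mulE he₁ he₂), Or.inr (Or.inr (Or.inr ?_))⟩
    rw [e, h.mul_eq (h.eM he₂) ha₁, mul_assoc, ← mul_assoc (e₁ * e₂) (e₁ * e₂), h.ee (h.mulE he₁ he₂), one_mul]

theorem Z0_comm (h : PA P A M C z) {x y : G} (hx : x ∈ h.Z0) (hy : y ∈ h.Z0) : x * y = y * x :=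
  (h.Z0_cen hx (h.Z0_le hy)).eq

theorem e_Z0 (h : PA P A M C z) {e : G} (he : e = 1 ∨ e = z) : e ∈ h.Z0 := by
  rcases he with rfl | rfl
  exacts [one_mem _, h.z_Z0]

end

section Finite

variable [Finite G] {P : Sylow 2 G} {A M C X : Subgroup G} {z : G}

theorem odd_pow_cent (h : PA (P : Subgroup G) A M C z) {k : G} (hk : k ∈ normalizer (h.Z0 : Set G)) :
    ∃ j, Odd j ∧ k ^ j ∈ centralizer (h.Z0 : Set G) := by
  have : Fact (Nat.Prime 2) := ⟨Nat.prime_two⟩
  have hC : centralizer (h.Z0 : Set G) ≤ normalizer (h.Z0 : Set G) := centralizer_le_normalizer _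
  have hn : ((centralizer (h.Z0 : Set G)).subgroupOf (normalizer (h.Z0 : Set G))).Normal :=
    (normal_subgroupOf_iff_le_normalizer hC).2 (normalizer_centralizer_le le_rfl)
  refine ⟨(centralizer (h.Z0 : Set G)).relIndex (normalizer (h.Z0 : Set G)), ?_, ?_⟩
  · have h1 : (P : Subgroup G) ≤ centralizer (h.Z0 : Set G) := fun p hp =>
      mem_cent.2 fun x hx => (h.Z0_cen hx hp).symm.eq
    have h2 : (centralizer (h.Z0 : Set G)).relIndex (normalizer (h.Z0 : Set G)) ∣ (P : Subgroup G).index :=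
      (relIndex_dvd_index_of_le hC).trans (index_dvd_of_le h1)
    refine Odd.of_dvd_nat ?_ h2
    rw [← Nat.not_even_iff_odd, even_iff_two_dvd]
    exact P.not_dvd_index
  · exact ((centralizer (h.Z0 : Set G)).subgroupOf (normalizer (h.Z0 : Set G))).pow_index_mem ⟨k, hk⟩

theorem cls_conj (h : PA (P : Subgroup G) A M C z) {k c : G} (hkz : Commute k z)
    (hc : k * c * k⁻¹ = 1 ∨ k * c * k⁻¹ = z) : c = 1 ∨ c = z := by
  have e : c = k⁻¹ * (k * c * k⁻¹) * k := by group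
  rcases hc with h1 | h1
  · left; rw [e, h1]; group
  · right
    rw [e, h1]
    have := conj_eq_iff_commute.2 hkz.inv_left
    simpa using this

theorem e_conj (h : PA (P : Subgroup G) A M C z) {k e : G} (hkz : Commute k z) (he : e = 1 ∨ e = z) :
    k * e * k⁻¹ = e := by
  rcases he with rfl | rfl
  · group
  · exact conj_eq_iff_commute.2 hkz

/-- an element fixing `z` and a class modulo `⟨z⟩` acts trivially on `Z0` -/
theorem triv (h : PA (P : Subgroup G) A M C z) {k a : G} (hk : k ∈ normalizer (h.Z0 : Set G)) (hkz : Commute k z)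
    (ha : a ∈ h.Z0) (ha1 : ¬ (a = 1 ∨ a = z)) (hka : k * a * k⁻¹ * a = 1 ∨ k * a * k⁻¹ * a = z) {c : G}
    (hc : c ∈ h.Z0) : Commute k c := by
  obtain ⟨j, hj, hjC⟩ := h.odd_pow_cent hk
  have haa := h.Z0_sq ha
  have hcc := h.Z0_sq hc
  have hkc : k * c * k⁻¹ ∈ h.Z0 := mem_normalizer_conj hk hc
  obtain ⟨f, hf, hfe⟩ : ∃ f, (f = 1 ∨ f = z) ∧ k * a * k⁻¹ = f * a := by
    refine ⟨_, hka, ?_⟩
    rw [mul_assoc (k * a * k⁻¹) a a, haa, mul_one]
  have hfZ := h.e_Z0 hf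
  by_cases hc1 : c = 1 ∨ c = z
  · exact conj_eq_iff_commute.1 (h.e_conj hkz hc1)
  -- the key
  obtain ⟨y, hy, hye, hyy⟩ : ∃ y ∈ h.Z0, k * c * k⁻¹ = y * c ∧ (k * y * k⁻¹ * y = 1 ∨ k * y * k⁻¹ * y = z) := by
    by_cases hac : a * c = 1 ∨ a * c = z
    · obtain ⟨e, he, hce⟩ : ∃ e, (e = 1 ∨ e = z) ∧ c = e * a := by
        refine ⟨_, hac, ?_⟩
        rw [h.Z0_comm ha hc, mul_assoc, haa, mul_one]
      refine ⟨f, hfZ, ?_, ?_⟩
      · rw [hce, conj_mul', h.e_conj hkz he, hfe, ← mul_assoc, ← mul_assoc, h.Z0_comm (h.e_Z0 he) hfZ]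
      · rw [h.e_conj hkz hf]
        left; exact h.ee hf
    · obtain ⟨e, he, h1⟩ := h.Z0_four ha hc hkc ha1 hc1 hac
      rcases h1 with h1 | h1 | h1 | h1
      · exact absurd (h.cls_conj hkz (by rw [h1]; exact he)) hc1
      · exfalso
        apply hac
        -- `k (a c) k⁻¹ = f a e a = f e`
        refine h.cls_conj hkz (k := k) ?_
        have e1 : k * (a * c) * k⁻¹ = f * e := by
          rw [conj_mul', hfe, h1, h.Z0_comm (h.e_Z0 he) ha]
          calc f * a * (a * e) = f * (a * a) * e := by group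
            _ = f * e := by rw [haa, mul_one]
        rw [e1]; exact h.mulE hf he
      · refine ⟨e, h.e_Z0 he, h1, ?_⟩
        rw [h.e_conj hkz he]
        left; exact h.ee he
      · refine ⟨e * a, mul_mem (h.e_Z0 he) ha, by rw [h1, mul_assoc], ?_⟩
        rw [conj_mul', h.e_conj hkz he, hfe]
        have e1 : e * (f * a) * (e * a) = f := by
          calc e * (f * a) * (e * a) = e * (f * (a * e)) * a := by group
            _ = e * (f * (e * a)) * a := by rw [h.Z0_comm ha (h.e_Z0 he)]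
            _ = e * (f * e) * (a * a) := by group
            _ = e * (e * f) := by rw [haa, mul_one, h.Z0_comm hfZ (h.e_Z0 he)]
            _ = (e * e) * f := by group
            _ = f := by rw [h.ee he, one_mul]
        rw [e1]; exact hf
  obtain ⟨f', hf', hfe'⟩ : ∃ f', (f' = 1 ∨ f' = z) ∧ k * (k * c * k⁻¹) * k⁻¹ = f' * c := by
    refine ⟨_, hyy, ?_⟩
    rw [hye, conj_mul', hye]; group
  have h4 : k ^ 4 * c * (k ^ 4)⁻¹ = c := by
    have e1 : k ^ 4 * c * (k ^ 4)⁻¹ = k * (k * (k * (k * c * k⁻¹) * k⁻¹) * k⁻¹) * k⁻¹ := by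
      have : k ^ 4 = k * k * k * k := by rw [pow_succ, pow_succ, pow_succ, pow_one]
      rw [this]; group
    rw [e1, hfe', conj_mul' k f' c, h.e_conj hkz hf', conj_mul' k f' (k * c * k⁻¹), h.e_conj hkz hf', hfe',
      ← mul_assoc, h.ee hf', one_mul]
  have h5 : k ∈ centralizer ({c} : Set G) := by
    refine StdRank2.Split.mem_of_pow_mem (a := 4) (b := j) ?_ ?_ ?_
    · have : Nat.Coprime (2 ^ 2) j := Nat.Coprime.pow_left 2 (Nat.coprime_two_left.2 hj)
      simpa using this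
    · exact mem_centralizer_singleton_iff.2 (conj_eq_iff_commute.1 h4)
    · exact mem_centralizer_singleton_iff.2 (mem_cent.1 hjC c hc)
  exact mem_centralizer_singleton_iff.1 h5

theorem datP (h : PA (P : Subgroup G) A M C z) {a : G} (ha : a ∈ A) (ha1 : a ≠ 1) :
    Dat M C A (zpowers a) (P : Subgroup G) z a where
  full := h.full
  mq := h.mqA ha ha1
  two := P.isPGroup'
  mr := fun m hm r hr => h.comm hm hr
  inf := fun x hx hx' => h.inf hx hx'
  mem := fun x => by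
    constructor
    · intro hx; exact h.dec hx
    · rintro ⟨m, hm, r, hr, rfl⟩
      exact mul_mem (h.M_le hm) (h.A_le hr)

theorem N_Z0_of (h : PA (P : Subgroup G) A M C z) {n : G} (hn : n ∈ normalizer ((P : Subgroup G) : Set G)) :
    n ∈ normalizer (h.Z0 : Set G) := by
  apply mem_normalizer_of
  intro x hx
  rw [h.mem_Z0_iff] at hx ⊢
  refine ⟨mem_normalizer_conj hn hx.1, fun p hp => ?_⟩
  have h1 := hx.2 _ (mem_normalizer_conj' hn hp)
  have h2 := Dat.conj_comm (n := n) h1.eq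
  have e : n * (n⁻¹ * p * n) * n⁻¹ = p := by group
  rw [e] at h2
  exact h2

theorem P_z (h : PA (P : Subgroup G) A M C z) {n : G} (hn : n ∈ normalizer ((P : Subgroup G) : Set G)) :
    Commute n z := by
  obtain ⟨a, ha, -, -, ha1, -⟩ := h.exists_ab
  have := normalizer_le_centralizer (sylow_not_dvd P) (fun p hp => (h.Z0_cen h.z_Z0 hp).symm)
    (fun g hg ho => (h.datP ha ha1).E_z hg ho) hn
  exact mem_centralizer_singleton_iff.1 this

/-- elements of odd order act trivially on `P / Z0` -/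
theorem P_odd (h : PA (P : Subgroup G) A M C z) {g x : G} (hg : g ∈ normalizer ((P : Subgroup G) : Set G))
    (ho : Odd (orderOf g)) (hx : x ∈ (P : Subgroup G)) : g * x * g⁻¹ * x⁻¹ ∈ h.Z0 := by
  obtain ⟨a, ha, -, -, ha1, -⟩ := h.exists_ab
  have D := h.datP ha ha1
  obtain ⟨r, hr, b, hb, rfl⟩ := h.dec hx
  obtain ⟨e, he, b', hb', e1⟩ := D.E_M hg ho hr
  have hbZ : b ∈ h.Z0 := h.A_Z0 hb
  have hb2 : g * b * g⁻¹ ∈ h.Z0 := mem_normalizer_conj (h.N_Z0_of hg) hbZ
  have hebZ : e * b' ∈ h.Z0 := h.mem_Z0.2 ⟨e, he, b', (Dat.mem_ZR.1 hb').1, rfl⟩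
  have c1 := (h.Z0_cen (mul_mem hb2 (inv_mem hbZ)) (h.M_le hr)).eq
  have e2 : g * (r * b) * g⁻¹ * (r * b)⁻¹ = (e * b') * ((g * b * g⁻¹) * b⁻¹) := by
    rw [conj_mul', e1]
    calc e * b' * r * (g * b * g⁻¹) * (r * b)⁻¹ = e * b' * (r * ((g * b * g⁻¹) * b⁻¹)) * r⁻¹ := by group
      _ = _ := by rw [← c1]; group
  rw [e2]
  exact mul_mem hebZ (mul_mem hb2 (inv_mem hbZ))

end Finite

end PA

end Cfsg.Agent.H301.Data
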