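import Mathlib
import Cfsg.Agent.H301.FourZ

/-!
# Sylow 2-subgroups `P = M × A`, `A` a four-group, with an element of odd order acting on `A`

`C1.pf`: if some element of odd order of `N_G(P)` does not centralise `P`, then `P = A* × B*`, the product of two
strongly closed subgroups.
-/

set_option autoImplicit false
set_option linter.unusedSectionVars false
set_option linter.unusedVariables false

namespace Cfsg.Agent.H301.Data

open Subgroup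
open Cfsg.Agent.Lib.GoldschmidtFusion
open Cfsg.Agent.Lib
open Cfsg.Agent.H301.Cop
open Cfsg.Agent.StdRank2.Split (CM mem_CM le_normalizer_CM le_of_sylow)
open scoped commutatorElement

variable {G : Type*} [Group G]

/-- an element of odd order acting nontrivially on `P = M × A` -/
structure C1 (P : Sylow 2 G) (A M C : Subgroup G) (z g : G) : Prop where
  pa : PA (P : Subgroup G) A M C z
  gN : g ∈ normalizer ((P : Subgroup G) : Set G)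
  odd : Odd (orderOf g)
  ne : ¬ ∀ x ∈ (P : Subgroup G), Commute g x

namespace C1

variable [Finite G] {P : Sylow 2 G} {A M C X : Subgroup G} {z g : G}

theorem gZ (h : C1 P A M C z g) {c : G} (hc : c ∈ h.pa.Z0) : g * c * g⁻¹ ∈ h.pa.Z0 :=
  mem_normalizer_conj (h.pa.N_Z0_of h.gN) hc

theorem gz (h : C1 P A M C z g) : Commute g z := h.pa.P_z h.gN

theorem zz (h : C1 P A M C z g) : z * z = 1 := h.pa.full.zz

theorem comm (h : C1 P A M C z g) {x y : G} (hx : x ∈ h.pa.Z0) (hy : y ∈ h.pa.Z0) : x * y = y * x :=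
  h.pa.Z0_comm hx hy

/-- (f2) -/
theorem f2 (h : C1 P A M C z g) {c : G} (hc : c ∈ h.pa.Z0) (hc1 : ¬ (c = 1 ∨ c = z)) :
    ¬ (g * c * g⁻¹ * c = 1 ∨ g * c * g⁻¹ * c = z) := by
  intro h1
  apply h.ne
  intro x hx
  have h2 := h.pa.P_odd h.gN h.odd hx
  exact commute_of P.isPGroup' h.odd (h.pa.Z0_le h2) (a := g * x * g⁻¹ * x⁻¹) (by group)
    (h.pa.triv (h.pa.N_Z0_of h.gN) h.gz hc hc1 h1 h2)

/-- the norm -/
theorem norm_mem (h : C1 P A M C z g) {c : G} (hc : c ∈ h.pa.Z0) :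
    c * (g * c * g⁻¹) * (g * (g * c * g⁻¹) * g⁻¹) = 1 ∨ c * (g * c * g⁻¹) * (g * (g * c * g⁻¹) * g⁻¹) = z := by
  have hy := h.gZ hc
  have hw := h.gZ hy
  by_cases hc1 : c = 1 ∨ c = z
  · have e1 : g * c * g⁻¹ = c := h.pa.e_conj h.gz hc1
    rw [e1, e1, h.pa.ee hc1, one_mul]
    exact hc1
  have hy1 : ¬ (g * c * g⁻¹ = 1 ∨ g * c * g⁻¹ = z) := fun h1 => hc1 (h.pa.cls_conj h.gz h1)
  have hxy : ¬ (c * (g * c * g⁻¹) = 1 ∨ c * (g * c * g⁻¹) = z) := by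
    rw [h.comm hc hy]; exact h.f2 hc hc1
  obtain ⟨e, he, h1⟩ := h.pa.Z0_four hc hy hw hc1 hy1 hxy
  rcases h1 with h1 | h1 | h1 | h1
  · exfalso
    exact hy1 (h.pa.cls_conj h.gz (by rw [h1]; exact he))
  · exfalso
    have e2 : g ^ 2 * c * (g ^ 2)⁻¹ = g * (g * c * g⁻¹) * g⁻¹ := by rw [pow_two]; group
    have h2 : Commute (g ^ 2) c := by
      refine h.pa.triv (pow_mem (h.pa.N_Z0_of h.gN) 2) (h.gz.pow_left 2) hc hc1 ?_ hc
      rw [e2, h1, mul_assoc, h.pa.Z0_sq hc, mul_one]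
      exact he
    have h3 := commute_of_sq h.odd h2
    apply h.f2 hc hc1
    left
    rw [conj_eq_iff_commute.2 h3, h.pa.Z0_sq hc]
  · exfalso
    apply h.f2 hy hy1
    rw [h1, mul_assoc, h.pa.Z0_sq hy, mul_one]
    exact he
  · rw [h1]
    have e3 : c * (g * c * g⁻¹) * (e * (c * (g * c * g⁻¹))) = e := by
      have hcy := mul_mem hc hy
      rw [h.comm hcy (mul_mem (h.pa.e_Z0 he) hcy), mul_assoc, h.pa.Z0_sq hcy, mul_one]
    rw [e3]; exact he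

/-- `g ^ 3` acts trivially on `Z0` -/
theorem g3 (h : C1 P A M C z g) {c : G} (hc : c ∈ h.pa.Z0) : g * (g * (g * c * g⁻¹) * g⁻¹) * g⁻¹ = c := by
  have hy := h.gZ hc
  have hw := h.gZ hy
  have hv := h.gZ hw
  have h1 := h.norm_mem hc
  have h2 := h.pa.e_conj h.gz h1
  rw [conj_mul', conj_mul'] at h2
  -- `y w v = c y w`
  have h3 : (g * c * g⁻¹) * (g * (g * c * g⁻¹) * g⁻¹) * (g * (g * (g * c * g⁻¹) * g⁻¹) * g⁻¹) =
      (g * c * g⁻¹) * (g * (g * c * g⁻¹) * g⁻¹) * c := by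
    rw [h2, mul_assoc, h.comm hc (mul_mem hy hw)]
  exact mul_left_cancel h3

theorem norm_mul (h : C1 P A M C z g) {a b : G} (ha : a ∈ h.pa.Z0) (hb : b ∈ h.pa.Z0) :
    (a * b) * (g * (a * b) * g⁻¹) * (g * (g * (a * b) * g⁻¹) * g⁻¹) =
      (a * (g * a * g⁻¹) * (g * (g * a * g⁻¹) * g⁻¹)) * (b * (g * b * g⁻¹) * (g * (g * b * g⁻¹) * g⁻¹)) := by
  have ha1 := h.gZ ha
  have ha2 := h.gZ ha1
  have hb1 := h.gZ hb
  have c1 := h.comm hb ha1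
  have c2 := h.comm (mul_mem hb hb1) ha2
  rw [conj_mul' g a b, conj_mul' g (g * a * g⁻¹) (g * b * g⁻¹)]
  generalize g * (g * a * g⁻¹) * g⁻¹ = a2 at *
  generalize g * (g * b * g⁻¹) * g⁻¹ = b2 at *
  generalize g * a * g⁻¹ = a1 at *
  generalize g * b * g⁻¹ = b1 at *
  calc a * b * (a1 * b1) * (a2 * b2) = a * (b * a1) * b1 * a2 * b2 := by group
    _ = a * a1 * (b * b1 * a2) * b2 := by rw [c1]; group
    _ = _ := by rw [c2]; group

/-- `A*` -/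
def AS (h : C1 P A M C z g) : Subgroup G where
  carrier := {c | c ∈ h.pa.Z0 ∧ c * (g * c * g⁻¹) * (g * (g * c * g⁻¹) * g⁻¹) = 1}
  one_mem' := ⟨one_mem _, by group⟩
  mul_mem' := by
    rintro a b ⟨ha, ha'⟩ ⟨hb, hb'⟩
    exact ⟨mul_mem ha hb, by rw [h.norm_mul ha hb, ha', hb', one_mul]⟩
  inv_mem' := by
    rintro a ⟨ha, ha'⟩
    rw [Set.mem_ofPred_eq, h.pa.Z0_inv ha]
    exact ⟨ha, ha'⟩

theorem mem_AS (h : C1 P A M C z g) {c : G} :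
    c ∈ h.AS ↔ c ∈ h.pa.Z0 ∧ c * (g * c * g⁻¹) * (g * (g * c * g⁻¹) * g⁻¹) = 1 := Iff.rfl

/-- `B*` -/
def BS (_ : C1 P A M C z g) : Subgroup G := (P : Subgroup G) ⊓ centralizer ({g} : Set G)

theorem mem_BS (h : C1 P A M C z g) {c : G} : c ∈ h.BS ↔ c ∈ (P : Subgroup G) ∧ Commute g c := by
  rw [BS, mem_inf, mem_centralizer_singleton_iff]
  exact ⟨fun h => ⟨h.1, h.2.symm⟩, fun h => ⟨h.1, h.2.symm.eq⟩⟩

theorem AS_Z0 (h : C1 P A M C z g) : h.AS ≤ h.pa.Z0 := fun _ hx => hx.1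

theorem z_AS (h : C1 P A M C z g) : z ∉ h.AS := by
  intro h1
  have h2 := h1.2
  rw [conj_eq_iff_commute.2 h.gz, conj_eq_iff_commute.2 h.gz, h.zz, one_mul] at h2
  exact h.pa.full.z1 h2

theorem Z0_AS (h : C1 P A M C z g) {c : G} (hc : c ∈ h.pa.Z0) : c ∈ h.AS ∨ c * z ∈ h.AS := by
  rcases h.norm_mem hc with h1 | h1
  · exact Or.inl ⟨hc, h1⟩
  · right
    refine ⟨mul_mem hc h.pa.z_Z0, ?_⟩
    rw [h.norm_mul hc h.pa.z_Z0, h1, conj_eq_iff_commute.2 h.gz, conj_eq_iff_commute.2 h.gz, h.zz, one_mul, h.zz]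

theorem g_AS (h : C1 P A M C z g) {c : G} (hc : c ∈ h.AS) : g * c * g⁻¹ ∈ h.AS := by
  refine ⟨h.gZ hc.1, ?_⟩
  have h1 : g * (c * (g * c * g⁻¹) * (g * (g * c * g⁻¹) * g⁻¹)) * g⁻¹ = g * 1 * g⁻¹ := by rw [hc.2]
  rw [conj_mul', conj_mul'] at h1
  rw [h1]; group

theorem z_BS (h : C1 P A M C z g) : z ∈ h.BS := h.mem_BS.2 ⟨h.pa.Z0_le h.pa.z_Z0, h.gz⟩

theorem BS_Z0 (h : C1 P A M C z g) {x : G} (hx : x ∈ h.BS) (hx' : x ∈ h.pa.Z0) : x = 1 ∨ x = z := by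
  by_contra hcon
  apply h.f2 hx' hcon
  left
  rw [conj_eq_iff_commute.2 (h.mem_BS.1 hx).2, h.pa.Z0_sq hx']

theorem AS_BS (h : C1 P A M C z g) {x : G} (hx : x ∈ h.AS) (hx' : x ∈ h.BS) : x = 1 := by
  rcases h.BS_Z0 hx' hx.1 with h1 | h1
  · exact h1
  · exact absurd (h1 ▸ hx) h.z_AS

/-- every coset of `A*` meets `B*` -/
theorem exists_zeta (h : C1 P A M C z g) {m : G} (hm : m ∈ (P : Subgroup G)) : ∃ ζ ∈ h.AS, m * ζ ∈ h.BS := by
  obtain ⟨v, hv, e⟩ : ∃ v ∈ h.pa.Z0, g * m * g⁻¹ = v * m := ⟨_, h.pa.P_odd h.gN h.odd hm, by group⟩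
  have hv1 := h.gZ hv
  have hv2 := h.gZ hv1
  -- `g ^ 3` commutes with `m`
  have h3 : Commute (g ^ 3) m := by
    have ho : Odd (orderOf (g ^ 3)) := odd_pow h.odd 3
    have hN : g ^ 3 ∈ normalizer ((P : Subgroup G) : Set G) := pow_mem h.gN 3
    have h4 := h.pa.P_odd hN ho hm
    refine commute_of P.isPGroup' ho (h.pa.Z0_le h4) (a := g ^ 3 * m * (g ^ 3)⁻¹ * m⁻¹) (by group) ?_
    rw [← conj_eq_iff_commute]
    have h5 := h.g3 h4
    have e3 : g ^ 3 = g * g * g := by rw [pow_succ, pow_succ, pow_one]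
    have e4 : ∀ t : G, g ^ 3 * t * (g ^ 3)⁻¹ = g * (g * (g * t * g⁻¹) * g⁻¹) * g⁻¹ := by
      intro t; rw [e3]; group
    rw [e4 (g ^ 3 * m * (g ^ 3)⁻¹ * m⁻¹)]
    exact h5
  have e3 : g ^ 3 * m * (g ^ 3)⁻¹ = (g * (g * v * g⁻¹) * g⁻¹) * (g * v * g⁻¹) * v * m := by
    have e4 : g ^ 3 * m * (g ^ 3)⁻¹ = g * (g * (g * m * g⁻¹) * g⁻¹) * g⁻¹ := by
      have : g ^ 3 = g * g * g := by rw [pow_succ, pow_succ, pow_one]
      rw [this]; group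
    rw [e4, e, conj_mul' g v m, e, conj_mul' g (g * v * g⁻¹) (v * m), conj_mul' g v m, e]
    group
  rw [conj_eq_iff_commute.2 h3] at e3
  have e5 : (g * (g * v * g⁻¹) * g⁻¹) * (g * v * g⁻¹) * v = 1 := mul_eq_right.1 e3.symm
  have e6 : v * (g * v * g⁻¹) * (g * (g * v * g⁻¹) * g⁻¹) = 1 := by
    calc v * (g * v * g⁻¹) * (g * (g * v * g⁻¹) * g⁻¹) = (g * (g * v * g⁻¹) * g⁻¹) * (v * (g * v * g⁻¹)) :=
          h.comm (mul_mem hv hv1) hv2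
      _ = (g * (g * v * g⁻¹) * g⁻¹) * ((g * v * g⁻¹) * v) := by rw [h.comm hv hv1]
      _ = 1 := by rw [← mul_assoc]; exact e5
  have hvA : v ∈ h.AS := ⟨hv, e6⟩
  refine ⟨g * v * g⁻¹, h.g_AS hvA, h.mem_BS.2 ⟨mul_mem hm (h.pa.Z0_le hv1), ?_⟩⟩
  rw [← conj_eq_iff_commute, conj_mul', e]
  -- `v m v2 = m v1`
  have e7 : v * (g * (g * v * g⁻¹) * g⁻¹) = g * v * g⁻¹ := by
    have h8 := h.comm hv1 hv
    have h9 := h.pa.Z0_sq hv1
    generalize g * (g * v * g⁻¹) * g⁻¹ = w at *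
    generalize g * v * g⁻¹ = y at *
    calc v * w = v * (y * y) * w := by rw [h9, mul_one]
      _ = (v * y) * y * w := by group
      _ = (y * v) * y * w := by rw [h8]
      _ = y * (v * y * w) := by group
      _ = y := by rw [e6, mul_one]
  have c1 := (h.pa.Z0_cen hv hm).eq
  rw [c1, mul_assoc, e7]

theorem AS_le (h : C1 P A M C z g) : h.AS ≤ (P : Subgroup G) := h.AS_Z0.trans h.pa.Z0_le

theorem BS_le (h : C1 P A M C z g) : h.BS ≤ (P : Subgroup G) := inf_le_left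

theorem dec (h : C1 P A M C z g) {p : G} (hp : p ∈ (P : Subgroup G)) : ∃ a ∈ h.AS, ∃ b ∈ h.BS, p = a * b := by
  obtain ⟨ζ, hζ, hb⟩ := h.exists_zeta hp
  refine ⟨ζ, hζ, p * ζ, hb, ?_⟩
  have c := (h.pa.Z0_cen hζ.1 hp).eq
  rw [← mul_assoc, c, mul_assoc, h.pa.Z0_sq hζ.1, mul_one]

theorem prod (h : C1 P A M C z g) : Cfsg.IsInternalDirectProduct h.AS h.BS (P : Subgroup G) :=
  ip_of h.AS_le h.BS_le (fun a ha b hb => (h.pa.Z0_cen ha.1 (h.BS_le hb)).eq) (fun x hx hx' => h.AS_BS hx hx')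
    (fun p hp => h.dec hp)

theorem isoA (h : C1 P A M C z g) : Nonempty (h.AS ≃* A) := by
  refine iso_of_complements (P := (P : Subgroup G)) (N := M) h.AS_le h.pa.A_le h.pa.M_le ?_ ?_ ?_ ?_ ?_
  · intro p hp
    exact mem_normalizer_of fun x hx => h.pa.conj_M hp hx
  · intro x hx hx'
    rcases h.pa.Z0_M hx.1 hx' with h1 | h1
    · exact h1
    · exact absurd (h1 ▸ hx) h.z_AS
  · intro x hx hx'
    exact h.pa.inf hx' hx
  · intro p hp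
    obtain ⟨m, hm, a, ha, rfl⟩ := h.pa.dec hp
    have haZ := h.pa.A_Z0 ha
    rcases h.Z0_AS haZ with h1 | h1
    · exact ⟨a, h1, m, hm, h.pa.comm hm ha⟩
    · refine ⟨a * z, h1, z * m, mul_mem h.pa.full.zR hm, ?_⟩
      rw [h.pa.comm hm ha]
      calc a * m = a * (z * z) * m := by rw [h.zz, mul_one]
        _ = _ := by group
  · intro p hp
    obtain ⟨m, hm, a, ha, rfl⟩ := h.pa.dec hp
    exact ⟨a, ha, m, hm, h.pa.comm hm ha⟩

theorem isoB (h : C1 P A M C z g) : Nonempty (h.BS ≃* M) := by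
  refine iso_of_complements (P := (P : Subgroup G)) (N := h.AS) h.BS_le h.pa.M_le h.AS_le ?_ ?_ ?_ ?_ ?_
  · intro p hp
    apply mem_normalizer_of
    intro x hx
    rw [conj_eq_iff_commute.2 (h.pa.Z0_cen hx.1 hp).symm]; exact hx
  · intro x hx hx'
    exact h.AS_BS hx' hx
  · intro x hx hx'
    rcases h.pa.Z0_M hx'.1 hx with h1 | h1
    · exact h1
    · exact absurd (h1 ▸ hx') h.z_AS
  · intro p hp
    obtain ⟨a, ha, b, hb, rfl⟩ := h.dec hp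
    exact ⟨b, hb, a, ha, (h.pa.Z0_cen ha.1 (h.BS_le hb)).eq⟩
  · intro p hp
    obtain ⟨m, hm, a, ha, rfl⟩ := h.pa.dec hp
    have haZ := h.pa.A_Z0 ha
    rcases h.Z0_AS haZ with h1 | h1
    · exact ⟨m, hm, a, h1, rfl⟩
    · refine ⟨m * z, mul_mem hm h.pa.full.zR, a * z, h1, ?_⟩
      rw [h.comm haZ h.pa.z_Z0]
      calc m * a = m * (z * z) * a := by rw [h.zz, mul_one]
        _ = _ := by group

/-- **(L1)** -/
theorem L1 (h : C1 P A M C z g) {n : G} (hn : n ∈ normalizer (h.pa.Z0 : Set G)) (hnz : Commute n z) :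
    ∃ i : ℕ, ∀ c ∈ h.pa.Z0, n * c * n⁻¹ = g ^ i * c * (g ^ i)⁻¹ := by
  obtain ⟨a, ha, -, -, ha1, -⟩ := h.pa.exists_ab
  have haZ := h.pa.A_Z0 ha
  have hac : ¬ (a = 1 ∨ a = z) := by
    rintro (h1 | h1)
    · exact ha1 h1
    · exact ha1 (h.pa.inf (by rw [h1]; exact h.pa.full.zR) ha)
  have hgN := h.pa.N_Z0_of h.gN
  -- reduction
  have red : ∀ (i : ℕ) (f : G), (f = 1 ∨ f = z) → n * a * n⁻¹ = f * (g ^ i * a * (g ^ i)⁻¹) →
      ∀ c ∈ h.pa.Z0, n * c * n⁻¹ = g ^ i * c * (g ^ i)⁻¹ := by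
    intro i f hf e c hc
    have hgz : Commute (g ^ i) z := h.gz.pow_left i
    have h1 : Commute ((g ^ i)⁻¹ * n) c := by
      refine h.pa.triv (mul_mem (inv_mem (pow_mem hgN i)) hn) (hgz.inv_left.mul_left hnz) haZ hac ?_ hc
      have e1 : (g ^ i)⁻¹ * n * a * ((g ^ i)⁻¹ * n)⁻¹ = f * a := by
        have e2 : (g ^ i)⁻¹ * n * a * ((g ^ i)⁻¹ * n)⁻¹ = (g ^ i)⁻¹ * (n * a * n⁻¹) * (g ^ i)⁻¹⁻¹ := by group
        rw [e2, e, conj_mul' (g ^ i)⁻¹ f, h.pa.e_conj hgz.inv_left hf]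
        group
      rw [e1, mul_assoc, h.pa.Z0_sq haZ, mul_one]
      exact hf
    have h2 := conj_eq_iff_commute.2 h1
    have e3 : n * c * n⁻¹ = g ^ i * ((g ^ i)⁻¹ * n * c * ((g ^ i)⁻¹ * n)⁻¹) * (g ^ i)⁻¹ := by group
    rw [e3, h2]
  have hy := h.gZ haZ
  have hw := h.gZ hy
  have hy1 : ¬ (g * a * g⁻¹ = 1 ∨ g * a * g⁻¹ = z) := fun h1 => hac (h.pa.cls_conj h.gz h1)
  have hxy : ¬ (a * (g * a * g⁻¹) = 1 ∨ a * (g * a * g⁻¹) = z) := by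
    rw [h.comm haZ hy]; exact h.f2 haZ hac
  obtain ⟨e, he, h1⟩ := h.pa.Z0_four haZ hy (mem_normalizer_conj hn haZ) hac hy1 hxy
  rcases h1 with h1 | h1 | h1 | h1
  · exact absurd (h.pa.cls_conj hnz (by rw [h1]; exact he)) hac
  · exact ⟨0, red 0 e he (by rw [h1]; group)⟩
  · exact ⟨1, red 1 e he (by rw [h1]; group)⟩
  · -- `a y = e' w`
    have h2 := h.norm_mem haZ
    have e4 : a * (g * a * g⁻¹) = (a * (g * a * g⁻¹) * (g * (g * a * g⁻¹) * g⁻¹)) * (g * (g * a * g⁻¹) * g⁻¹) := by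
      rw [mul_assoc _ (g * (g * a * g⁻¹) * g⁻¹), h.pa.Z0_sq hw, mul_one]
    refine ⟨2, red 2 _ (h.pa.mulE he h2) ?_⟩
    rw [h1]
    nth_rewrite 1 [e4]
    have e5 : g ^ 2 * a * (g ^ 2)⁻¹ = g * (g * a * g⁻¹) * g⁻¹ := by rw [pow_two]; group
    rw [e5, mul_assoc e]

/-- `N_G(Z0) ∩ C_G(z)` normalises `A*` -/
theorem N_AS (h : C1 P A M C z g) {n : G} (hn : n ∈ normalizer (h.pa.Z0 : Set G)) (hnz : Commute n z) {c : G}
    (hc : c ∈ h.AS) : n * c * n⁻¹ ∈ h.AS := by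
  obtain ⟨i, hi⟩ := h.L1 hn hnz
  rw [hi c hc.1]
  have : g ∈ normalizer (h.AS : Set G) := mem_normalizer_of fun x hx => h.g_AS hx
  exact mem_normalizer_conj (pow_mem this i) hc

/-- the subgroups to which the argument applies -/
structure Hd (h : C1 P A M C z g) (H : Subgroup G) : Prop where
  Z : h.pa.Z0 ≤ H
  le : H ≤ (P : Subgroup G)
  nz : ∀ n ∈ normalizer (H : Set G), Commute n z
  nZ : normalizer (H : Set G) ≤ normalizer (h.pa.Z0 : Set G)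
  dvd : ¬ 2 ∣ ((P : Subgroup G) ⊓ normalizer (H : Set G)).relIndex (normalizer (H : Set G))
  act : ∀ p ∈ (P : Subgroup G), p ∈ normalizer (H : Set G) → (∀ x ∈ H, p * x * p⁻¹ * x⁻¹ ∈ h.pa.Z0) → p ∈ H

variable {H : Subgroup G}

theorem gH (h : C1 P A M C z g) (hZ : h.pa.Z0 ≤ H) (hH : H ≤ (P : Subgroup G)) : g ∈ normalizer (H : Set G) := by
  apply mem_normalizer_of
  intro x hx
  have h1 := hZ (h.pa.P_odd h.gN h.odd (hH hx))
  exact (H.mul_mem_cancel_right (inv_mem hx)).1 h1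

theorem Hd.K_le {h : C1 P A M C z g} (hH : h.Hd H) {k : G} (hk : k ∈ normalizer (H : Set G))
    (hkZ : ∀ c ∈ h.pa.Z0, Commute k c) (hk1 : ∀ x ∈ H, k * x * k⁻¹ * x⁻¹ ∈ h.pa.Z0) :
    k ∈ H ⊔ centralizer (H : Set G) := by
  have hNCH : normalizer (H : Set G) ≤ normalizer (centralizer (H : Set G) : Set G) := normalizer_centralizer_le le_rfl
  have hNS : normalizer (H : Set G) ≤ normalizer ((H ⊔ centralizer (H : Set G) : Subgroup G) : Set G) := by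
    intro n hn
    rw [mem_normalizer_iff_map_conj, Subgroup.map_sup, mem_normalizer_iff_map_conj.1 hn,
      mem_normalizer_iff_map_conj.1 (hNCH hn)]
  have hNCM : normalizer (H : Set G) ≤
      normalizer (CM (normalizer (H : Set G)) H h.pa.Z0 hH.nZ : Set G) := le_normalizer_CM le_rfl
  have hNCZ : normalizer (H : Set G) ≤ normalizer (centralizer (h.pa.Z0 : Set G) : Set G) :=
    normalizer_centralizer_le hH.nZ
  have key : CM (normalizer (H : Set G)) H h.pa.Z0 hH.nZ ⊓ centralizer (h.pa.Z0 : Set G) ≤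
      H ⊔ centralizer (H : Set G) := by
    refine le_of_sylow (T := (P : Subgroup G) ⊓ normalizer (H : Set G)) (N := normalizer (H : Set G))
      (P.isPGroup'.to_le inf_le_left) hH.dvd (fun _ h => h.1.1) ?_ hNS ?_ ?_
    · intro n hn
      apply mem_normalizer_of
      rintro x ⟨hx, hx'⟩
      exact ⟨mem_normalizer_conj (hNCM hn) hx, mem_normalizer_conj (hNCZ hn) hx'⟩
    · rintro p ⟨⟨hpP, hpN⟩, ⟨-, hp⟩, -⟩
      exact mem_sup_left (hH.act p hpP hpN hp)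
    · rintro w ⟨⟨hw, hw'⟩, hwZ⟩ ho
      refine mem_sup_right (mem_cent.2 fun x hx => ?_)
      have h1 := hw' x hx
      exact commute_of P.isPGroup' ho (h.pa.Z0_le h1) (a := w * x * w⁻¹ * x⁻¹) (by group) (mem_cent.1 hwZ _ h1)
  exact key ⟨⟨hk, hk1⟩, mem_cent.2 fun c hc => (hkZ c hc).eq⟩

theorem Hd.ngn {h : C1 P A M C z g} (hH : h.Hd H) {n : G} (hn : n ∈ normalizer (H : Set G)) :
    n * g * n⁻¹ * g⁻¹ ∈ H ⊔ centralizer (H : Set G) := by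
  have hnZ := hH.nZ hn
  have hnz := hH.nz n hn
  have hg := h.gH hH.Z hH.le
  have hgZ := h.pa.N_Z0_of h.gN
  obtain ⟨i, hi⟩ := h.L1 hnZ hnz
  refine hH.K_le (mul_mem (mul_mem (mul_mem hn hg) (inv_mem hn)) (inv_mem hg)) ?_ ?_
  · intro c hc
    -- `c = g d g⁻¹`, `d = n f n⁻¹`
    have hd : g⁻¹ * c * g ∈ h.pa.Z0 := mem_normalizer_conj' hgZ hc
    have hf : (g ^ i)⁻¹ * (g⁻¹ * c * g) * g ^ i ∈ h.pa.Z0 := mem_normalizer_conj' (pow_mem hgZ i) hd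
    have e1 := hi _ hf
    have e2 := hi _ (h.gZ hf)
    have e3 : g ^ i * ((g ^ i)⁻¹ * (g⁻¹ * c * g) * g ^ i) * (g ^ i)⁻¹ = g⁻¹ * c * g := by group
    rw [e3] at e1
    have e4 : n⁻¹ * (g⁻¹ * c * g) * n = (g ^ i)⁻¹ * (g⁻¹ * c * g) * g ^ i := by
      calc n⁻¹ * (g⁻¹ * c * g) * n = n⁻¹ * (n * ((g ^ i)⁻¹ * (g⁻¹ * c * g) * g ^ i) * n⁻¹) * n := by rw [e1]
        _ = _ := by group
    rw [← conj_eq_iff_commute]
    have e5 : n * g * n⁻¹ * g⁻¹ * c * (n * g * n⁻¹ * g⁻¹)⁻¹ = n * (g * (n⁻¹ * (g⁻¹ * c * g) * n) * g⁻¹) * n⁻¹ := by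
      group
    rw [e5, e4, e2]
    have e6 : g ^ i * (g * ((g ^ i)⁻¹ * (g⁻¹ * c * g) * g ^ i) * g⁻¹) * (g ^ i)⁻¹ =
        (g ^ i * g * (g ^ i)⁻¹ * g⁻¹) * c * (g ^ i * g * (g ^ i)⁻¹ * g⁻¹)⁻¹ := by group
    have e7 : g ^ i * g * (g ^ i)⁻¹ * g⁻¹ = 1 := by
      have : g ^ i * g = g * g ^ i := ((Commute.refl g).pow_left i).eq
      rw [this]; group
    rw [e6, e7]; group
  · intro x hx
    have hy : g⁻¹ * x * g ∈ H := mem_normalizer_conj' hg hx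
    have hu : n⁻¹ * (g⁻¹ * x * g) * n ∈ H := mem_normalizer_conj' hn hy
    have h1 := h.pa.P_odd h.gN h.odd (hH.le hu)
    have h2 := h.pa.P_odd h.gN h.odd (hH.le hy)
    have e : n * g * n⁻¹ * g⁻¹ * x * (n * g * n⁻¹ * g⁻¹)⁻¹ * x⁻¹ =
        (n * (g * (n⁻¹ * (g⁻¹ * x * g) * n) * g⁻¹ * (n⁻¹ * (g⁻¹ * x * g) * n)⁻¹) * n⁻¹) *
          (g * (g⁻¹ * x * g) * g⁻¹ * (g⁻¹ * x * g)⁻¹)⁻¹ := by group
    rw [e]
    exact mul_mem (mem_normalizer_conj hnZ h1) (inv_mem h2)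

theorem Hd.N_BS {h : C1 P A M C z g} (hH : h.Hd H) {n b : G} (hn : n ∈ normalizer (H : Set G)) (hb : b ∈ H)
    (hb' : b ∈ h.BS) : n * b * n⁻¹ ∈ h.BS := by
  have hC : centralizer (H : Set G) ≤ normalizer (H : Set G) := centralizer_le_normalizer _
  obtain ⟨p, hp, c, hc, e⟩ : ∃ x ∈ H, ∃ c ∈ centralizer (H : Set G), x * c = n * g * n⁻¹ * g⁻¹ := by
    have hk := hH.ngn hn
    rw [← SetLike.mem_coe, coe_mul_of_right_le_normalizer_left H _ hC] at hk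
    exact hk
  set b' := n * b * n⁻¹ with hb'd
  have hb'H : b' ∈ H := mem_normalizer_conj hn hb
  have hg := h.gH hH.Z hH.le
  obtain ⟨ζ, hζ, hz⟩ := h.exists_zeta (hH.le hb'H)
  have hζH : ζ ∈ H := hH.Z hζ.1
  set b'' := b' * ζ with hb''
  have hb''H : b'' ∈ H := mul_mem hb'H hζH
  have eb : b' = b'' * ζ := by rw [hb'', mul_assoc, h.pa.Z0_sq hζ.1, mul_one]
  -- `n g n⁻¹ = p c g` commutes with `b'`
  have h1 : Commute (n * g * n⁻¹) b' := by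
    have := Dat.conj_comm (n := n) (h.mem_BS.1 hb').2.eq
    exact this
  have e1 : n * g * n⁻¹ = p * c * g := by rw [e]; group
  rw [e1, ← conj_eq_iff_commute] at h1
  have e2 : p * c * g * b' * (p * c * g)⁻¹ = p * (c * (g * b' * g⁻¹) * c⁻¹) * p⁻¹ := by group
  have e3 : c * (g * b' * g⁻¹) * c⁻¹ = g * b' * g⁻¹ :=
    conj_eq_iff_commute.2 (mem_cent.1 hc _ (mem_normalizer_conj hg hb'H))
  have hgζ := h.g_AS hζ
  have e4 : g * b' * g⁻¹ = b'' * (g * ζ * g⁻¹) := by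
    rw [eb, conj_mul', conj_eq_iff_commute.2 (h.mem_BS.1 hz).2]
  have e5 : p * (g * ζ * g⁻¹) * p⁻¹ = g * ζ * g⁻¹ :=
    conj_eq_iff_commute.2 (h.pa.Z0_cen hgζ.1 (hH.le hp)).symm
  rw [e2, e3, e4, conj_mul', e5, eb] at h1
  -- `p b'' p⁻¹ (g ζ g⁻¹) = b'' ζ`
  obtain ⟨α, hα, β, hβ, rfl⟩ := h.dec (hH.le hp)
  have e6 : α * β * b'' * (α * β)⁻¹ = β * b'' * β⁻¹ := by
    have h2 := h.pa.Z0_cen hα.1 (h.BS_le (mul_mem (mul_mem hβ hz) (inv_mem hβ)))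
    have e7 : α * β * b'' * (α * β)⁻¹ = α * (β * b'' * β⁻¹) * α⁻¹ := by group
    rw [e7, conj_eq_iff_commute.2 h2]
  rw [e6] at h1
  obtain ⟨h2, h3⟩ := EssProd.mul_inj (TwoFusion.ProdFromComm.prod_symm h.prod)
    (mul_mem (mul_mem hβ hz) (inv_mem hβ)) hz hgζ hζ h1
  have h4 : ζ = 1 := h.AS_BS hζ (h.mem_BS.2 ⟨h.AS_le hζ, conj_eq_iff_commute.1 h3⟩)
  rw [eb, h4, mul_one]
  exact hz

end C1

end Cfsg.Agent.H301.Data
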