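import Mathlib
import Cfsg.Agent.H301.FourC

/-!
# Sylow 2-subgroups `P = M × A`, `A` a four-group: product fusion

`C1.pf`: if some element of odd order of `N_G(P)` does not centralise `P`, then `P = A* × B*`, the product of two
strongly closed subgroups.  `FQ`: the essential subgroups `A × Q`, `Q` quaternion of order 8.
-/

set_option autoImplicit false
set_option linter.unusedSectionVars false
set_option linter.unusedVariables false

namespace Cfsg.Agent.H301.Data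

open Subgroup
open Cfsg.Agent.Lib.GoldschmidtFusion
open Cfsg.Agent.Lib
open Cfsg.Agent.H301.Cop
open scoped commutatorElement

variable {G : Type*} [Group G]

theorem Full.center_iw {M C : Subgroup G} {z i w r : G} (h : Full M C z) (hi : i ∈ C) (hii : i * i = z) (hw : w ∈ M)
    (hwC : w ∉ C) (hr : r ∈ M) (ci : r * i = i * r) (cw : r * w = w * r) : r = 1 ∨ r = z := by
  have hrC : r ∈ C := h.mem_of_commute_sqrt hi hii hr ci
  have e1 : w * r * w⁻¹ = r := by rw [← cw]; group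
  have hmm : r * r = 1 := by
    rcases h.inv w hw hwC r hrC with e2 | e2
    · rw [e1] at e2
      nth_rewrite 1 [e2]; group
    · have e3 : r * r = z := by
        rw [e1] at e2
        have := h.comm (inv_mem hrC) h.zC
        nth_rewrite 1 [e2]; rw [this]; group
      have e4 := h.inv4 w hw hwC r hrC e3
      rw [e1] at e4
      nth_rewrite 1 [e4]; group
  exact h.uniq r hrC hmm

/-- a subgroup preserved by the normalisers of `P` and of the essential subgroups -/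
theorem fus_gen [Finite G] {P : Sylow 2 G} (K : Subgroup G)
    (h0 : ∀ n ∈ normalizer ((P : Subgroup G) : Set G), ∀ x ∈ (P : Subgroup G), x ∈ K → n * x * n⁻¹ ∈ K)
    (h1 : ∀ X : Subgroup G, EssDefs.Ess 2 (P : Subgroup G) X → ∀ n ∈ normalizer (X : Set G), ∀ x ∈ X, x ∈ K →
      n * x * n⁻¹ ∈ K) {x g : G} (hx : x ∈ (P : Subgroup G)) (hg : g * x * g⁻¹ ∈ (P : Subgroup G)) :
    g * x * g⁻¹ ∈ K ↔ x ∈ K := by
  have : Fact (Nat.Prime 2) := ⟨Nat.prime_two⟩
  have red : ∀ X : Subgroup G, (∀ n ∈ normalizer (X : Set G), ∀ x ∈ X, x ∈ K → n * x * n⁻¹ ∈ K) →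
      normalizer (X : Set G) ≤ normalizer ((X ⊓ K : Subgroup G) : Set G) := by
    intro X hX n hn
    apply mem_normalizer_of
    rintro x ⟨hx, hx'⟩
    exact ⟨mem_normalizer_conj hn hx, hX n hn x hx hx'⟩
  have hgen := EssBridge.gen_of_conj P (fun X => normalizer (X : Set G) ≤ normalizer ((X ⊓ K : Subgroup G) : Set G))
    (red _ h0) (fun X hX => red X (h1 X hX)) (A := zpowers x) (zpowers_le.2 hx) (g := g) (zpowers_map_conj_le hg)
  have key := Gen.invariant (fun y => y ∈ K) (fun X _ hX g hg y hy => ?_) hgen x (mem_zpowers x)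
  · exact iff_of_eq key
  · apply propext
    constructor
    · intro h3
      have h4 := mem_normalizer_conj' (hX hg) (mem_inf.2 ⟨mem_normalizer_conj hg hy, h3⟩)
      have e : g⁻¹ * (g * y * g⁻¹) * g = y := by group
      rw [e] at h4
      exact h4.2
    · intro h3
      exact (mem_normalizer_conj (hX hg) (mem_inf.2 ⟨hy, h3⟩)).2

/-- the essential subgroups `A × Q` -/
structure FQ (P : Sylow 2 G) (A M C X : Subgroup G) (z i w : G) : Prop where
  pa : PA (P : Subgroup G) A M C z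
  ess : EssDefs.Ess 2 (P : Subgroup G) X
  iR : i ∈ C ⊓ (X ⊓ M)
  ii : i * i = z
  D4 : ∀ a ∈ C ⊓ (X ⊓ M), a * a * (a * a) = 1
  wR : w ∈ X ⊓ M
  wC : w ∉ C
  ww : w * w = z

namespace FQ

variable [Finite G] {P : Sylow 2 G} {A M C X : Subgroup G} {z i w : G}

theorem XP (h : FQ P A M C X z i w) : X ≤ (P : Subgroup G) := (ess_lt h.ess).le

theorem AX (h : FQ P A M C X z i w) : A ≤ X := h.pa.A_Z0.trans (h.pa.ess_Z0 h.ess)

theorem sqX (h : FQ P A M C X z i w) {x : G} (hx : x ∈ X) : x * x = 1 ∨ x * x = z := by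
  obtain ⟨r, hr, a, ha, rfl⟩ := h.pa.decX h.XP h.AX hx
  rw [h.pa.mul_eq hr.2 ha, h.pa.aa ha, mul_one]
  by_cases hrC : r ∈ C
  · exact h.pa.full.uniq _ (mul_mem hrC hrC) (h.D4 r ⟨hrC, hr⟩)
  · exact h.pa.full.out r hr.2 hrC

theorem N_z (h : FQ P A M C X z i w) {n : G} (hn : n ∈ normalizer (X : Set G)) : Commute n z := by
  rw [← conj_eq_iff_commute]
  have h1 : n * i * n⁻¹ ∈ X := mem_normalizer_conj hn h.iR.2.1
  have e : n * z * n⁻¹ = (n * i * n⁻¹) * (n * i * n⁻¹) := by rw [← conj_mul', h.ii]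
  rcases h.sqX h1 with h2 | h2
  · exfalso
    rw [← e] at h2
    apply h.pa.full.z1
    have e2 : z = n⁻¹ * (n * z * n⁻¹) * n := by group
    rw [e2, h2]; group
  · rw [e, h2]

theorem N_Z0 (h : FQ P A M C X z i w) : normalizer (X : Set G) ≤ normalizer (h.pa.Z0 : Set G) := by
  intro n hn
  apply mem_normalizer_of
  intro x hx
  have hxX := h.pa.ess_Z0 h.ess hx
  have hc : ∀ y ∈ X, Commute (n * x * n⁻¹) y := by
    intro y hy
    have h1 := h.pa.Z0_cen hx (h.XP (mem_normalizer_conj' hn hy))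
    have h2 := Dat.conj_comm (n := n) h1.eq
    have e : n * (n⁻¹ * y * n) * n⁻¹ = y := by group
    rw [e] at h2
    exact h2
  obtain ⟨r, hr, a, ha, e⟩ := h.pa.decX h.XP h.AX (mem_normalizer_conj hn hxX)
  rw [e] at hc ⊢
  have key : ∀ y ∈ X ⊓ M, r * y = y * r := by
    intro y hy
    have h1 := (hc y hy.1).eq
    have h2 := h.pa.comm hy.2 ha
    have h3 : r * y * a = y * r * a := by
      calc r * y * a = r * (y * a) := by group
        _ = r * a * y := by rw [h2]; group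
        _ = _ := by rw [h1]; group
    exact mul_right_cancel h3
  exact h.pa.mem_Z0.2 ⟨r, h.pa.full.center_iw h.iR.1 h.ii h.wR.2 h.wC hr.2 (key i h.iR.2) (key w h.wR), a, ha, rfl⟩

theorem act (h : FQ P A M C X z i w) {p : G} (hp : p ∈ (P : Subgroup G))
    (hp' : ∀ x ∈ X, p * x * p⁻¹ * x⁻¹ ∈ h.pa.Z0) : p ∈ X := by
  obtain ⟨m, hm, a, ha, rfl⟩ := h.pa.dec hp
  have h1 := hp' w h.wR.1
  have hwM : w ∈ M := h.wR.2
  rw [h.pa.conj_eq hm ha hwM] at h1
  have h2 := h.pa.Z0_M h1 (mul_mem (mul_mem (mul_mem hm hwM) (inv_mem hm)) (inv_mem hwM))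
  refine mul_mem (h.pa.full.mem_of_act (R := X ⊓ M) ⟨h.pa.ess_Z0 h.ess h.pa.z_Z0, h.pa.full.zR⟩ h.iR.2 h.iR.1 h.ii
    h.wR hwM h.wC hm ?_).1 (h.AX ha)
  rcases h2 with h3 | h3
  · left; exact mul_inv_eq_one.1 h3
  · right
    rw [h.pa.full.zcen hwM]
    exact mul_inv_eq_iff_eq_mul.1 h3

end FQ

namespace C1

variable [Finite G] {P : Sylow 2 G} {A M C X : Subgroup G} {z g : G}

theorem hd_P (h : C1 P A M C z g) : h.Hd (P : Subgroup G) where
  Z := h.pa.Z0_le
  le := le_rfl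
  nz := fun n hn => h.pa.P_z hn
  nZ := fun n hn => h.pa.N_Z0_of hn
  dvd := sylow_not_dvd P
  act := fun p hp _ _ => hp

theorem hd_Q (h : C1 P A M C z g) {i w : G} (hQ : FQ P A M C X z i w) : h.Hd X where
  Z := hQ.pa.ess_Z0 hQ.ess
  le := hQ.XP
  nz := fun n hn => hQ.N_z hn
  nZ := hQ.N_Z0
  dvd := ess_dvd hQ.ess
  act := fun p hp _ hp' => hQ.act hp hp'

/-- the normalisers of the essential subgroups -/
theorem N_ess (h : C1 P A M C z g) (hX : EssDefs.Ess 2 (P : Subgroup G) X) {n : G} (hn : n ∈ normalizer (X : Set G)) :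
    (∀ c ∈ h.AS, n * c * n⁻¹ ∈ h.AS) ∧ (∀ b ∈ X, b ∈ h.BS → n * b * n⁻¹ ∈ h.BS) := by
  have hZX := h.pa.ess_Z0 hX
  have hgX : g ∈ normalizer (X : Set G) := h.gH hZX (ess_lt hX).le
  rcases h.pa.four_type hX with ⟨hD, v, hv, hvC, hvv⟩ | ⟨⟨i, hi, hii⟩, hD, w, hw, hwC, hww⟩
  · obtain ⟨AX, W, hV⟩ := v_out h.pa hX hD hv hvC hvv
    have h1 : ∀ c ∈ AX, c ∈ h.AS := by
      intro c hc
      refine ⟨hV.a1 hc, ?_⟩
      have hg1 := mem_normalizer_conj (hV.a4 hgX) hc
      have hg2 := mem_normalizer_conj (hV.a4 hgX) hg1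
      rcases h.norm_mem (hV.a1 hc) with h2 | h2
      · exact h2
      · exfalso
        apply hV.a2
        rw [← h2]
        exact mul_mem (mul_mem hc hg1) hg2
    have h2 : ∀ c ∈ h.AS, c ∈ AX := by
      intro c hc
      rcases hV.a3 c hc.1 with h3 | h3
      · exact h3
      · exact absurd ((h.AS.mul_mem_cancel_left hc).1 (h1 _ h3)) h.z_AS
    have hWB : ∀ w ∈ W, w ∈ h.BS := by
      intro w hw
      exact h.mem_BS.2 ⟨(ess_lt hX).le (hV.w2 hw), hV.w6 g hgX h.odd h.gz w hw⟩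
    refine ⟨fun c hc => h1 _ (mem_normalizer_conj (hV.a4 hn) (h2 c hc)), fun b hb hb' => ?_⟩
    obtain ⟨w, hw, a, ha, rfl⟩ := hV.w5 b hb
    have ha1 : a = 1 := h.AS_BS (h1 a ha) ((h.BS.mul_mem_cancel_left (hWB w hw)).1 hb')
    rw [ha1, mul_one]
    exact hWB _ (mem_normalizer_conj (hV.w3 hn) hw)
  · have hQ : FQ P A M C X z i w := ⟨h.pa, hX, hi, hii, hD, hw, hwC, hww⟩
    have hH := h.hd_Q hQ
    exact ⟨fun c hc => h.N_AS (hH.nZ hn) (hH.nz n hn) hc, fun b hb hb' => hH.N_BS hn hb hb'⟩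

theorem clA (h : C1 P A M C z g) : Cfsg.IsStronglyClosed h.AS (P : Subgroup G) := by
  refine ⟨h.AS_le, fun x hx k hk => ?_⟩
  refine (fus_gen h.AS ?_ ?_ (h.AS_le hx) hk).2 hx
  · intro n hn x _ hx
    exact h.N_AS (h.pa.N_Z0_of hn) (h.pa.P_z hn) hx
  · intro X hX n hn x _ hx
    exact (h.N_ess hX hn).1 x hx

theorem clB (h : C1 P A M C z g) : Cfsg.IsStronglyClosed h.BS (P : Subgroup G) := by
  refine ⟨h.BS_le, fun x hx k hk => ?_⟩
  refine (fus_gen h.BS ?_ ?_ (h.BS_le hx) hk).2 hx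
  · intro n hn x hx hx'
    exact h.hd_P.N_BS hn hx hx'
  · intro X hX n hn x hx hx'
    exact (h.N_ess hX hn).2 x hx hx'

/-- **Case 1.** -/
theorem pf (h : C1 P A M C z g) : PF (P : Subgroup G) h.AS h.BS A M :=
  ⟨h.prod, h.clA, h.clB, h.isoA, h.isoB⟩

/-- the elements of odd order of `N_G(P)` centralise `B*` -/
theorem odd_BS (h : C1 P A M C z g) {l : G} (hl : l ∈ normalizer ((P : Subgroup G) : Set G)) (ho : Odd (orderOf l))
    {x : G} (hx : x ∈ h.BS) : Commute l x := by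
  have hxP := h.BS_le hx
  have h1 := h.pa.P_odd hl ho hxP
  have h2 : l * x * l⁻¹ ∈ h.BS := h.hd_P.N_BS hl hxP hx
  have h3 := h.BS_Z0 (mul_mem h2 (inv_mem hx)) h1
  refine commute_of P.isPGroup' ho (h.pa.Z0_le h1) (a := l * x * l⁻¹ * x⁻¹) (by group) ?_
  rcases h3 with h4 | h4
  · rw [h4]; exact Commute.one_right _
  · rw [h4]; exact h.pa.P_z hl

end C1

end Cfsg.Agent.H301.Data
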