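import Mathlib
import Cfsg.Agent.H301.FourP

/-!
# Sylow 2-subgroups `P = M × A`, `A` a four-group: the elements of odd order act on `A`

`PA.case2`: if `O(G) = 1` and `G` has no normal subgroup of index two, some element of odd order of `N_G(P)` does not
centralise `P`.  `four_fusion`: product fusion.
-/

set_option autoImplicit false
set_option linter.unusedSectionVars false
set_option linter.unusedVariables false

namespace Cfsg.Agent.H301.Data

open Subgroup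
open Cfsg.Agent.Lib.GoldschmidtFusion
open Cfsg.Agent.Lib
open Cfsg.Agent.H301.Cop
open scoped commutatorElement

variable {G : Type*} [Group G]

/-- transfer: a central involution outside a subgroup of index two of `P` -/
theorem transfer_index_two [Finite G] {P : Sylow 2 G} {K : Subgroup G} (hKP : K ≤ (P : Subgroup G))
    (hi : K.relIndex (P : Subgroup G) = 2) {z : G} (hz : z ∈ (P : Subgroup G)) (hzc : ∀ g, Commute g z)
    (hzK : z ∉ K) (hzz : z * z = 1) : ∃ L : Subgroup G, L.Normal ∧ L.index = 2 := by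
  have h2 : Fact (Nat.Prime 2) := ⟨Nat.prime_two⟩
  have hn : (K.subgroupOf (P : Subgroup G)).Normal := Subgroup.normal_of_index_eq_two hi
  have hc2 : Nat.card ((P : Subgroup G) ⧸ K.subgroupOf (P : Subgroup G)) = 2 := hi
  have hm2 : Nat.card (Multiplicative (ZMod 2)) = 2 := by
    rw [Nat.card_congr Multiplicative.toAdd]
    exact Nat.card_zmod 2
  let e : ((P : Subgroup G) ⧸ K.subgroupOf (P : Subgroup G)) ≃* Multiplicative (ZMod 2) :=
    mulEquivOfPrimeCardEq (p := 2) hc2 hm2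
  let φ : (P : Subgroup G) →* Multiplicative (ZMod 2) :=
    e.toMonoidHom.comp (QuotientGroup.mk' (K.subgroupOf (P : Subgroup G)))
  have hφ : ∀ x : (P : Subgroup G), φ x = 1 ↔ (x : G) ∈ K := by
    intro x
    change e (QuotientGroup.mk' (K.subgroupOf (P : Subgroup G)) x) = 1 ↔ _
    rw [map_eq_one_iff e e.injective, QuotientGroup.mk'_apply, QuotientGroup.eq_one_iff, mem_subgroupOf]
  set V : G →* Multiplicative (ZMod 2) := MonoidHom.transfer φ with hV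
  have hpow : z ^ (P : Subgroup G).index = z := by
    obtain ⟨k, hk⟩ : Odd (P : Subgroup G).index := by
      rw [← Nat.not_even_iff_odd, even_iff_two_dvd]; exact P.not_dvd_index
    rw [hk, pow_succ, pow_mul, pow_two, hzz, one_pow, one_mul]
  have hVz : V z ≠ 1 := by
    rw [hV, MonoidHom.transfer_eq_pow φ z (fun k g₀ _ => by
      have := (hzc g₀).pow_right k
      rw [mul_assoc, ← this.eq]; group)]
    intro h
    rw [hφ] at h
    apply hzK
    simpa [hpow] using h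
  refine ⟨V.ker, inferInstance, ?_⟩
  have hs : Function.Surjective V := by
    have hr : V.range = ⊤ := by
      have : Fact (Nat.card (Multiplicative (ZMod 2))).Prime := by rw [hm2]; exact ⟨Nat.prime_two⟩
      rcases eq_bot_or_eq_top_of_prime_card V.range with h | h
      · exfalso
        apply hVz
        have h3 : V z ∈ V.range := ⟨z, rfl⟩
        rw [h, mem_bot] at h3
        exact h3
      · exact h
    exact MonoidHom.range_eq_top.1 hr
  rw [index_ker, MonoidHom.range_eq_top.2 hs, Nat.card_congr Subgroup.topEquiv.toEquiv, hm2]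

theorem cyc_sq {C : Subgroup G} (hC : IsCyclic C) {a b : G} (ha : a ∈ C) (hb : b ∈ C) (ha1 : ¬ ∃ c ∈ C, a = c * c)
    (hb1 : ¬ ∃ c ∈ C, b = c * c) : ∃ c ∈ C, a⁻¹ * b = c * c := by
  obtain ⟨⟨g, hg⟩, hgen⟩ := hC.exists_generator
  have hex : ∀ x ∈ C, ∃ k : ℤ, g ^ k = x := by
    intro x hx
    obtain ⟨k, hk⟩ := mem_zpowers_iff.1 (hgen ⟨x, hx⟩)
    refine ⟨k, ?_⟩
    have := congrArg Subtype.val hk
    simpa using this
  obtain ⟨i, rfl⟩ := hex a ha
  obtain ⟨j, rfl⟩ := hex b hb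
  have hsq : ∀ k : ℤ, g ^ (2 * k) = g ^ k * g ^ k := fun k => by rw [two_mul, zpow_add]
  rcases Int.even_or_odd' i with ⟨k, hk | hk⟩
  · exact absurd ⟨g ^ k, zpow_mem hg k, by rw [hk, hsq]⟩ ha1
  rcases Int.even_or_odd' j with ⟨l, hl | hl⟩
  · exact absurd ⟨g ^ l, zpow_mem hg l, by rw [hl, hsq]⟩ hb1
  refine ⟨g ^ (l - k), zpow_mem hg _, ?_⟩
  rw [← hsq, ← zpow_neg, ← zpow_add, hk, hl]
  congr 1
  ring

/-- the essential subgroups `Z0 ⟨v⟩` -/
structure VT (P : Sylow 2 G) (M C X : Subgroup G) (z v : G) : Prop where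
  ess : EssDefs.Ess 2 (P : Subgroup G) X
  D2 : ∀ a ∈ C ⊓ (X ⊓ M), a = 1 ∨ a = z
  vR : v ∈ X ⊓ M
  vC : v ∉ C
  vv : v * v = 1

namespace PA

variable [Finite G] {P : Sylow 2 G} {A M C X : Subgroup G} {z v : G}

theorem memV (h : PA (P : Subgroup G) A M C z) (hV : VT P M C X z v) {x : G} (hx : x ∈ X) :
    x ∈ h.Z0 ∨ ∃ c ∈ h.Z0, x = c * v := by
  have hZX := h.ess_Z0 hV.ess
  obtain ⟨r, hr, a, ha, rfl⟩ := h.decX (ess_lt hV.ess).le (h.A_Z0.trans hZX) hx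
  have haZ := h.A_Z0 ha
  have hra := h.comm hr.2 ha
  by_cases hrC : r ∈ C
  · left
    exact mul_mem (h.e_Z0 (hV.D2 r ⟨hrC, hr⟩)) haZ
  · right
    have h1 : r * v ∈ C := h.full.idx r hr.2 hrC v hV.vR.2 hV.vC
    have h2 := hV.D2 _ ⟨h1, mul_mem hr hV.vR⟩
    refine ⟨a * (r * v), mul_mem haZ (h.e_Z0 h2), ?_⟩
    rw [hra, mul_assoc, mul_assoc, hV.vv, mul_one]

/-- conjugate essential subgroups -/
theorem conj_V (h : PA (P : Subgroup G) A M C z) {X₁ X₂ : Subgroup G} {v₁ v₂ : G} (h1 : VT P M C X₁ z v₁)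
    (h2 : VT P M C X₂ z v₂) (hc : ∃ c ∈ C, v₁ * v₂ = c * c) {α : G} (hα : α ∈ h.Z0)
    (hα1 : ∀ n ∈ normalizer (X₁ : Set G), Commute n α) {n : G} (hn : n ∈ normalizer (X₂ : Set G)) : Commute n α := by
  obtain ⟨c, hcC, hcc⟩ := hc
  have hcM : c ∈ M := h.full.le hcC
  have hcP : c ∈ (P : Subgroup G) := h.M_le hcM
  have hv1 : v₁⁻¹ = v₁ := inv_eq_of_mul_eq_one_left h1.vv
  have hZ1 := h.ess_Z0 h1.ess
  have hZ2 := h.ess_Z0 h2.ess
  have hv2 : v₂ = v₁ * (c * c) := by rw [← hcc, ← mul_assoc, h1.vv, one_mul]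
  have hzc : z * c = c * z := (h.full.comm h.full.zC hcC)
  obtain ⟨e, he, e1⟩ : ∃ e, (e = 1 ∨ e = z) ∧ c⁻¹ * v₁ * c = v₂ * e := by
    have e2 : c⁻¹ * v₁ * c = v₁ * (v₁ * c⁻¹ * v₁⁻¹) * c := by
      rw [hv1]
      calc c⁻¹ * v₁ * c = (v₁ * v₁) * c⁻¹ * v₁ * c := by rw [h1.vv, one_mul]
        _ = _ := by group
    rcases h.full.inv v₁ h1.vR.2 h1.vC c⁻¹ (inv_mem hcC) with e3 | e3
    · refine ⟨1, Or.inl rfl, ?_⟩
      rw [e2, e3, inv_inv, hv2]; group
    · refine ⟨z, Or.inr rfl, ?_⟩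
      rw [e2, e3, inv_inv, hv2]
      calc v₁ * (c * z) * c = v₁ * c * (z * c) := by group
        _ = _ := by rw [hzc]; group
  have heZ := h.e_Z0 he
  have fwd : ∀ x ∈ X₁, c⁻¹ * x * c ∈ X₂ := by
    intro x hx
    rcases h.memV h1 hx with h3 | ⟨d, hd, rfl⟩
    · have : c⁻¹ * x * c = x := by
        have := conj_eq_iff_commute.2 (h.Z0_cen h3 (inv_mem hcP)).symm
        simpa using this
      rw [this]; exact hZ2 h3
    · have e3 : c⁻¹ * (d * v₁) * c = d * (c⁻¹ * v₁ * c) := by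
        have := (h.Z0_cen hd (inv_mem hcP)).eq
        rw [← mul_assoc, ← this]; group
      rw [e3, e1]
      exact mul_mem (hZ2 hd) (mul_mem h2.vR.1 (hZ2 heZ))
  have bwd : ∀ x ∈ X₂, c * x * c⁻¹ ∈ X₁ := by
    intro x hx
    rcases h.memV h2 hx with h3 | ⟨d, hd, rfl⟩
    · rw [conj_eq_iff_commute.2 (h.Z0_cen h3 hcP).symm]; exact hZ1 h3
    · have e3 : c * (d * v₂) * c⁻¹ = d * (c * v₂ * c⁻¹) := by
        have := (h.Z0_cen hd hcP).eq
        rw [← mul_assoc, ← this]; group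
      have e4 : c * v₂ * c⁻¹ = v₁ * e := by
        have e5 : v₂ = (c⁻¹ * v₁ * c) * e := by rw [e1, mul_assoc, h.Z0_sq heZ, mul_one]
        have e6 := (h.Z0_cen heZ (inv_mem hcP)).eq
        rw [e5]
        calc c * (c⁻¹ * v₁ * c * e) * c⁻¹ = v₁ * (c * (e * c⁻¹)) := by group
          _ = v₁ * e := by rw [e6]; group
      rw [e3, e4]
      exact mul_mem (hZ1 hd) (mul_mem h1.vR.1 (hZ1 heZ))
  have hcn : c * n * c⁻¹ ∈ normalizer (X₁ : Set G) := by
    apply mem_normalizer_of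
    intro x hx
    have e3 : c * n * c⁻¹ * x * (c * n * c⁻¹)⁻¹ = c * (n * (c⁻¹ * x * c) * n⁻¹) * c⁻¹ := by group
    rw [e3]
    exact bwd _ (mem_normalizer_conj hn (fwd x hx))
  have h3 := Dat.conj_comm (n := c⁻¹) (hα1 _ hcn).eq
  have e4 : c⁻¹ * (c * n * c⁻¹) * c⁻¹⁻¹ = n := by group
  have e5 : c⁻¹ * α * c⁻¹⁻¹ = α := conj_eq_iff_commute.2 (h.Z0_cen hα (inv_mem hcP)).symm
  rw [e4, e5] at h3
  exact h3

theorem burnside (h : PA (P : Subgroup G) A M C z)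
    (hcen : ∀ g ∈ normalizer ((P : Subgroup G) : Set G), Odd (orderOf g) → ∀ x ∈ (P : Subgroup G), Commute g x)
    {n x : G} (hx : x ∈ h.Z0) (hn : n * x * n⁻¹ ∈ h.Z0) : n * x * n⁻¹ = x := by
  have : Fact (Nat.Prime 2) := ⟨Nat.prime_two⟩
  have hc : ∀ y ∈ h.Z0, y ∈ centralizer ((P : Subgroup G) : Set G) := fun y hy =>
    mem_cent.2 fun p hp => (h.Z0_cen hy hp).eq
  obtain ⟨m, hm, e⟩ := Sylow.conj_eq_normalizer_conj_of_mem_centralizer P x n⁻¹ (hc x hx)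
    (by rw [inv_inv]; exact hc _ hn)
  rw [inv_inv] at e
  have h1 : Commute m x := by
    have := normalizer_le_centralizer (sylow_not_dvd P) (fun p hp => (h.Z0_cen hx hp).symm)
      (fun g hg ho => hcen g hg ho x (h.Z0_le hx)) hm
    exact mem_centralizer_singleton_iff.1 this
  rw [e]
  have := conj_eq_iff_commute.2 h1.inv_left
  simpa using this

theorem V_cent (h : PA (P : Subgroup G) A M C z)
    (hcen : ∀ g ∈ normalizer ((P : Subgroup G) : Set G), Odd (orderOf g) → ∀ x ∈ (P : Subgroup G), Commute g x)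
    {AX W : Subgroup G} (hV : VOut h.Z0 X AX W z) {n α : G} (hn : n ∈ normalizer (X : Set G)) (hα : α ∈ AX) :
    Commute n α :=
  conj_eq_iff_commute.1 (h.burnside hcen (hV.a1 hα) (hV.a1 (mem_normalizer_conj (hV.a4 hn) hα)))

/-- some `α ∈ Z0`, `α ∉ ⟨z⟩`, is centralised by all normalisers -/
theorem exists_alpha (h : PA (P : Subgroup G) A M C z)
    (hcen : ∀ g ∈ normalizer ((P : Subgroup G) : Set G), Odd (orderOf g) → ∀ x ∈ (P : Subgroup G), Commute g x) :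
    ∃ α ∈ h.Z0, ¬ (α = 1 ∨ α = z) ∧ ∀ X : Subgroup G, EssDefs.Ess 2 (P : Subgroup G) X →
      ∀ n ∈ normalizer (X : Set G), Commute n α := by
  obtain ⟨a, ha, b, hb, ha1, hb1, hab⟩ := h.exists_ab
  have hcls : ∀ x ∈ A, x ≠ 1 → ¬ (x = 1 ∨ x = z) := by
    rintro x hx hx1 (h1 | h1)
    · exact hx1 h1
    · exact hx1 (h.inf (by rw [h1]; exact h.full.zR) hx)
  have hclsz : ∀ x, ¬ (x = 1 ∨ x = z) → ¬ (x * z = 1 ∨ x * z = z) := by
    rintro x hx (h1 | h1)
    · apply hx; right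
      rw [eq_inv_of_mul_eq_one_left h1]
      exact inv_eq_of_mul_eq_one_left h.full.zz
    · apply hx; left; exact mul_eq_right.1 h1
  have hab1 : a * b ≠ 1 := by
    intro h1
    apply hab
    rw [eq_inv_of_mul_eq_one_left h1]
    exact inv_eq_of_mul_eq_one_left (h.aa hb)
  -- reduction to the groups of type V
  have red : ∀ α ∈ h.Z0, (∀ (X : Subgroup G) (v : G), VT P M C X z v → ∀ n ∈ normalizer (X : Set G), Commute n α) →
      ∀ X : Subgroup G, EssDefs.Ess 2 (P : Subgroup G) X → ∀ n ∈ normalizer (X : Set G), Commute n α := by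
    intro α hα hV X hX n hn
    rcases h.four_type hX with ⟨hD, v, hv, hvC, hvv⟩ | ⟨⟨i, hi, hii⟩, hD, w, hw, hwC, hww⟩
    · exact hV X v ⟨hX, hD, hv, hvC, hvv⟩ n hn
    · have hQ : FQ P A M C X z i w := ⟨h, hX, hi, hii, hD, hw, hwC, hww⟩
      exact conj_eq_iff_commute.1 (h.burnside hcen hα (mem_normalizer_conj (hQ.N_Z0 hn) hα))
  by_cases h1 : ∃ (X₁ : Subgroup G) (v₁ : G), VT P M C X₁ z v₁
  swap
  · push Not at h1
    exact ⟨a, h.A_Z0 ha, hcls a ha ha1, red a (h.A_Z0 ha) (fun X v hV => absurd hV (h1 X v))⟩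
  obtain ⟨X₁, v₁, hV₁⟩ := h1
  obtain ⟨AX₁, W₁, hO₁⟩ := v_out h hV₁.ess hV₁.D2 hV₁.vR hV₁.vC hV₁.vv
  by_cases h2 : ∃ (X₂ : Subgroup G) (v₂ : G), VT P M C X₂ z v₂ ∧ ¬ ∃ c ∈ C, v₁ * v₂ = c * c
  swap
  · push Not at h2
    obtain ⟨α, hα, hα1⟩ : ∃ α ∈ AX₁, ¬ (α = 1 ∨ α = z) := by
      rcases hO₁.a3 a (h.A_Z0 ha) with h3 | h3
      · exact ⟨a, h3, hcls a ha ha1⟩
      · exact ⟨a * z, h3, hclsz a (hcls a ha ha1)⟩
    refine ⟨α, hO₁.a1 hα, hα1, red α (hO₁.a1 hα) ?_⟩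
    intro X v hV n hn
    obtain ⟨c, hc, e⟩ := h2 X v hV
    exact h.conj_V hV₁ hV ⟨c, hc, e⟩ (hO₁.a1 hα) (fun n hn => h.V_cent hcen hO₁ hn hα) hn
  obtain ⟨X₂, v₂, hV₂, h12⟩ := h2
  obtain ⟨AX₂, W₂, hO₂⟩ := v_out h hV₂.ess hV₂.D2 hV₂.vR hV₂.vC hV₂.vv
  obtain ⟨α, hα, hα', hα1⟩ : ∃ α ∈ AX₁, α ∈ AX₂ ∧ ¬ (α = 1 ∨ α = z) := by
    obtain ⟨α, hα, hαa⟩ : ∃ α ∈ AX₁, α = a ∨ α = a * z := by
      rcases hO₁.a3 a (h.A_Z0 ha) with h3 | h3
      exacts [⟨a, h3, Or.inl rfl⟩, ⟨a * z, h3, Or.inr rfl⟩]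
    obtain ⟨β, hβ, hβb⟩ : ∃ β ∈ AX₁, β = b ∨ β = b * z := by
      rcases hO₁.a3 b (h.A_Z0 hb) with h3 | h3
      exacts [⟨b, h3, Or.inl rfl⟩, ⟨b * z, h3, Or.inr rfl⟩]
    have hαc : ¬ (α = 1 ∨ α = z) := by
      rcases hαa with h3 | h3 <;> rw [h3]
      exacts [hcls a ha ha1, hclsz a (hcls a ha ha1)]
    have hβc : ¬ (β = 1 ∨ β = z) := by
      rcases hβb with h3 | h3 <;> rw [h3]
      exacts [hcls b hb hb1, hclsz b (hcls b hb hb1)]
    have hαβ : ¬ (α * β = 1 ∨ α * β = z) := by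
      have habc := hcls (a * b) (mul_mem ha hb) hab1
      have cz : b * z = z * b := h.Z0_comm (h.A_Z0 hb) h.z_Z0
      rcases hαa with h3 | h3 <;> rcases hβb with h4 | h4 <;> rw [h3, h4]
      · exact habc
      · rw [← mul_assoc]; exact hclsz _ habc
      · rw [mul_assoc, ← cz, ← mul_assoc]; exact hclsz _ habc
      · have : a * z * (b * z) = a * b := by
          calc a * z * (b * z) = a * (z * b) * z := by group
            _ = a * b * (z * z) := by rw [← cz]; group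
            _ = a * b := by rw [h.full.zz, mul_one]
        rw [this]; exact habc
    rcases hO₂.a3 α (hO₁.a1 hα) with h3 | h3
    · exact ⟨α, hα, h3, hαc⟩
    rcases hO₂.a3 β (hO₁.a1 hβ) with h4 | h4
    · exact ⟨β, hβ, h4, hβc⟩
    refine ⟨α * β, mul_mem hα hβ, ?_, hαβ⟩
    have h5 := mul_mem h3 h4
    have cz : β * z = z * β := h.Z0_comm (hO₁.a1 hβ) h.z_Z0
    have : α * z * (β * z) = α * β := by
      calc α * z * (β * z) = α * (z * β) * z := by group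
        _ = α * β * (z * z) := by rw [← cz]; group
        _ = α * β := by rw [h.full.zz, mul_one]
    rwa [this] at h5
  have hαZ := hO₁.a1 hα
  refine ⟨α, hαZ, hα1, red α hαZ ?_⟩
  intro X v hV n hn
  by_cases h13 : ∃ c ∈ C, v₁ * v = c * c
  · exact h.conj_V hV₁ hV h13 hαZ (fun n hn => h.V_cent hcen hO₁ hn hα) hn
  · have h12C : v₁ * v₂ ∈ C := h.full.idx v₁ hV₁.vR.2 hV₁.vC v₂ hV₂.vR.2 hV₂.vC
    have h13C : v₁ * v ∈ C := h.full.idx v₁ hV₁.vR.2 hV₁.vC v hV.vR.2 hV.vC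
    obtain ⟨c, hc, e⟩ := cyc_sq h.full.cyc h12C h13C h12 h13
    have e1 : (v₁ * v₂)⁻¹ * (v₁ * v) = v₂ * v := by
      rw [mul_inv_rev, inv_eq_of_mul_eq_one_left hV₂.vv]; group
    rw [e1] at e
    exact h.conj_V hV₂ hV ⟨c, hc, e⟩ hαZ (fun n hn => h.V_cent hcen hO₂ hn hα') hn

/-- a subgroup of index two of `P` containing `M` and not containing a given element of `Z0` -/
theorem exists_sub (h : PA (P : Subgroup G) A M C z) {α : G} (hα : α ∈ h.Z0) (hα1 : ¬ (α = 1 ∨ α = z)) :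
    ∃ K : Subgroup G, K ≤ (P : Subgroup G) ∧ K.relIndex (P : Subgroup G) = 2 ∧ α ∉ K := by
  obtain ⟨e, he, a, ha, rfl⟩ := h.mem_Z0.1 hα
  have ha1 : a ≠ 1 := by rintro rfl; exact hα1 (by rwa [mul_one])
  obtain ⟨b, hb, hb1, hab⟩ : ∃ b ∈ A, b ≠ 1 ∧ a ≠ b := by
    obtain ⟨x, hx, y, hy, hx1, hy1, hxy⟩ := h.exists_ab
    by_cases h1 : a = x
    · exact ⟨y, hy, hy1, by rw [h1]; exact hxy⟩
    · exact ⟨x, hx, hx1, h1⟩
  have hbb := h.aa hb
  have hc : ∀ m ∈ M, ∀ c ∈ zpowers b, m * c = c * m := fun m hm c hc => h.comm hm ((zpowers_le.2 hb) hc)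
  set K : Subgroup G := mulS M (zpowers b) hc with hK
  have hKP : K ≤ (P : Subgroup G) := by
    rintro x ⟨m, hm, c, hc', rfl⟩
    exact mul_mem (h.M_le hm) (h.A_le ((zpowers_le.2 hb) hc'))
  have hmem : ∀ m ∈ M, ∀ c ∈ A, m * c ∈ K ↔ c = 1 ∨ c = b := by
    intro m hm c hcA
    constructor
    · rintro ⟨m', hm', c', hc', e1⟩
      have h2 := (EssProd.mul_inj h.prod hm hm' hcA ((zpowers_le.2 hb) hc') e1).2
      rw [h2]
      exact (mem_zp hbb).1 hc'
    · intro h1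
      exact ⟨m, hm, c, (mem_zp hbb).2 h1, rfl⟩
  refine ⟨K, hKP, ?_, ?_⟩
  · rw [relIndex, index_eq_two_iff]
    refine ⟨⟨a, h.A_le ha⟩, ?_⟩
    rintro ⟨x, hx⟩
    obtain ⟨m, hm, c, hcA, rfl⟩ := h.dec hx
    have e2 : ((⟨m * c, hx⟩ : (P : Subgroup G)) * ⟨a, h.A_le ha⟩ ∈ K.subgroupOf (P : Subgroup G)) ↔
        (c * a = 1 ∨ c * a = b) := by
      rw [mem_subgroupOf]
      change m * c * a ∈ K ↔ _
      rw [mul_assoc, hmem m hm _ (mul_mem hcA ha)]
    have e3 : ((⟨m * c, hx⟩ : (P : Subgroup G)) ∈ K.subgroupOf (P : Subgroup G)) ↔ (c = 1 ∨ c = b) := by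
      rw [mem_subgroupOf]
      exact hmem m hm c hcA
    rw [xor_def, e2, e3]
    have haa := h.aa ha
    have cab := h.A_comm ha hb
    have hab' : a * b ≠ 1 := by
      intro h1
      apply hab
      rw [eq_inv_of_mul_eq_one_left h1]
      exact inv_eq_of_mul_eq_one_left hbb
    rcases h.eq_of ha hb hcA ha1 hb1 hab with h1 | h1 | h1 | h1
    · right
      rw [h1, one_mul]
      exact ⟨Or.inl rfl, fun h2 => by rcases h2 with h2 | h2; exacts [ha1 h2, hab h2]⟩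
    · left
      rw [h1, haa]
      exact ⟨Or.inl rfl, fun h2 => by rcases h2 with h2 | h2; exacts [ha1 h2, hab h2]⟩
    · right
      rw [h1, ← cab]
      exact ⟨Or.inr rfl, fun h2 => by
        rcases h2 with h2 | h2
        · exact hab' h2
        · exact ha1 (mul_eq_right.1 h2)⟩
    · left
      have e4 : a * b * a = b := by rw [cab, mul_assoc, haa, mul_one]
      rw [h1, e4]
      exact ⟨Or.inr rfl, fun h2 => by
        rcases h2 with h2 | h2
        · exact hab' h2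
        · exact ha1 (mul_eq_right.1 h2)⟩
  · rw [hmem e (h.eM he) a ha]
    rintro (h1 | h1)
    · exact ha1 h1
    · exact hab h1

/-- **Case 2.** -/
theorem case2 (h : PA (P : Subgroup G) A M C z) (hO : Cfsg.oddCore G = ⊥)
    (h2 : ∀ N : Subgroup G, N.Normal → N.index ≠ 2) : ∃ g, C1 P A M C z g := by
  have : Fact (Nat.Prime 2) := ⟨Nat.prime_two⟩
  by_contra hcon
  have hcen : ∀ g ∈ normalizer ((P : Subgroup G) : Set G), Odd (orderOf g) → ∀ x ∈ (P : Subgroup G), Commute g x := by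
    intro g hg ho
    by_contra hne
    exact hcon ⟨g, h, hg, ho, hne⟩
  obtain ⟨α, hα, hα1, hαX⟩ := h.exists_alpha hcen
  have hαP := h.Z0_le hα
  have hαα := h.Z0_sq hα
  have hiso : ∀ g : G, g * α * g⁻¹ ∈ (P : Subgroup G) → g * α * g⁻¹ = α := by
    intro g hg
    refine fus_fix hαP ?_ ?_ hg
    · exact normalizer_le_centralizer (sylow_not_dvd P) (fun p hp => (h.Z0_cen hα hp).symm)
        (fun g hg ho => hcen g hg ho α hαP)
    · intro X hX n hn
      exact mem_centralizer_singleton_iff.2 (hαX X hX n hn)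
  have hord : orderOf α = 2 := orderOf_eq_prime (by rw [pow_two, hαα]) (fun h1 => hα1 (Or.inl h1))
  obtain ⟨N, hN, hNo, hNc⟩ := Cfsg.Agent.S0215.result P α hord hαP hiso
  have hN1 : N ≤ Cfsg.oddCore G := Cores.le_pPrimeCore hN (Nat.coprime_two_right.2 hNo)
  rw [hO, le_bot_iff] at hN1
  have hcα : ∀ g, Commute g α := by
    intro g
    have h1 := hNc g
    rw [hN1, mem_bot] at h1
    exact (mul_inv_eq_iff_eq_mul.1 (mul_inv_eq_one.1 h1)).symm
  obtain ⟨K, hKP, hKi, hαK⟩ := h.exists_sub hα hα1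
  obtain ⟨L, hL, hLi⟩ := transfer_index_two hKP hKi hαP hcα hαK hαα
  exact h2 L hL hLi

end PA

/-- **Product fusion** for `P = M × A`, `A` a four-group. -/
theorem four_fusion [Finite G] {P : Sylow 2 G} {A M C : Subgroup G} {z : G} (h : PA (P : Subgroup G) A M C z)
    (hO : Cfsg.oddCore G = ⊥) (h2 : ∀ N : Subgroup G, N.Normal → N.index ≠ 2) :
    ∃ A' B' : Subgroup G, PF (P : Subgroup G) A' B' A M ∧
      ∀ g ∈ normalizer ((P : Subgroup G) : Set G), Odd (orderOf g) → ∀ x ∈ B', Commute g x := by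
  obtain ⟨g, hg⟩ := h.case2 hO h2
  exact ⟨hg.AS, hg.BS, hg.pf, fun l hl ho x hx => hg.odd_BS hl ho hx⟩

end Cfsg.Agent.H301.Data
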